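import Cfsg.Agent.Small.J3i

/-!
# Simple groups of order 50232960: the centre of a Sylow `2`-subgroup
-/

set_option autoImplicit false
set_option linter.unusedSectionVars false

namespace CF.Small.En.J3

open Subgroup CF.BlockB Cfsg CF.PF

variable {G : Type*} [Group G] [Finite G] [IsSimpleGroup G] (hN : Nat.card G = N) (S : Sylow 2 G) {z s : G}
include hN

theorem card_S : Nat.card S = 128 := card_sylow_eq S (a := 7) (m := 392445) hN (by norm_num)

theorem ord5 {x : G} (h : orderOf x = 5) : Nat.card (centralizer ({x} : Set G)) = 30 ∧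
    Nat.card (normalizer (zpowers x : Set G)) = 60 := by
  obtain ⟨R⟩ := pset hN 5
  obtain ⟨S⟩ := pset hN 17
  obtain ⟨T⟩ := pset hN 19
  have := (five hN R S T).1
  rw [R.card_cent' h, R.card_norm h, show Nat.card R.K = 6 from congrArg (·.c) this,
    show R.fi = 2 from congrArg (·.e) this]
  exact ⟨rfl, rfl⟩

variable (hz : orderOf z = 2) (h : (S : Subgroup G) ≤ centralizer {z})
include hz h

theorem card_cz : Nat.card (centralizer ({z} : Set G)) = 1920 :=
  (pset hN 5).elim fun R => (cz hN R hz (card_S hN S ▸ card_dvd_of_le h)).2.1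

theorem conj_of (hs : orderOf s = 2) (h' : (S : Subgroup G) ≤ centralizer {s}) :
    ∃ n ∈ normalizer (S : Set G), n * z * n⁻¹ = s := by
  obtain ⟨R⟩ := pset hN 5
  obtain ⟨k1, -, k2⟩ := cz hN R hz (card_S hN S ▸ card_dvd_of_le h)
  obtain ⟨g, rfl⟩ := isConj_iff.1 (show IsConj z s from not_not.1 fun k => by
    have := R.mI_add_le k
    rw [k2, (cz hN R hs (card_S hN S ▸ card_dvd_of_le h')).2.2, show Nat.card R.K = 6 from congrArg (·.c) k1] at this
    omega)
  obtain ⟨n, k3, k4⟩ := S.conj_eq_normalizer_conj_of_mem_centralizer z g⁻¹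
    (fun a k => mem_centralizer_singleton_iff.1 (h k)) fun a k => by
      rw [inv_inv]; exact mem_centralizer_singleton_iff.1 (h' k)
  exact ⟨n⁻¹, inv_mem k3, by rw [inv_inv, ← k4, inv_inv]⟩

theorem exists_E1 : ∃ (E : Subgroup (centralizer ({z} : Set G))) (_ : E.Normal),
    ⟨z, mem_centralizer_singleton_iff.2 rfl⟩ ∈ E ∧ Nat.card E = 32 ∧
      Nonempty (centralizer ({z} : Set G) ⧸ E ≃* alternatingGroup (Fin 5)) :=
  exists_E (card_cz hN S hz h) ((orderOf_mk _ _).trans hz)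
    (mem_center_iff.2 fun g => Subtype.ext (mem_centralizer_singleton_iff.1 g.2)) fun x k =>
      have := ord5 hN ((orderOf_coe x).trans k)
      ⟨this.1 ▸ cent_dvd x, this.2 ▸ norm_dvd x⟩

theorem exists_E2 : ∃ E : Subgroup G, z ∈ E ∧ Nat.card E = 32 ∧ E ≤ S ∧ centralizer {z} ≤ normalizer (E : Set G) ∧
    (∀ a ∈ centralizer {z}, a ∉ E → 2 < (centralizer {a}).relIndex E) ∧
    ∀ T ⊆ (E : Set G), (∀ g ∈ centralizer {z}, ∀ x ∈ T, g * x * g⁻¹ ∈ T) → 5 ∣ (T \ {1, z}).ncard := by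
  obtain ⟨E, n, k1, k2, ⟨f⟩⟩ := exists_E1 hN S hz h
  have k3 := (card_map_of_injective (subtype_injective _)).trans k2
  have k4 : centralizer {z} ≤ normalizer (E.map (centralizer {z}).subtype : Set G) := by
    simpa [normalizer_eq_top, ← MonoidHom.range_eq_map] using le_normalizer_map (H := E) (centralizer {z}).subtype
  have k5 : z ∈ E.map (centralizer {z}).subtype := ⟨_, k1, rfl⟩
  refine ⟨_, k5, k3, le_sup_right.trans (S.is_maximal' (S.isPGroup'.to_sup_of_normal_right'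
    (IsPGroup.of_card (n := 5) k3) (h.trans k4)) le_sup_left).le, k4, fun a k e => ?_, fun T hT hi => ?_⟩
  · rw [← relIndex_comap]
    convert two_lt k2 f (fun x k => (ord5 hN ((orderOf_coe x).trans k)).1 ▸ cent_dvd x) (a := ⟨a, k⟩)
      fun k => e ⟨_, k, rfl⟩
    ext g
    simp [mem_centralizer_singleton_iff, Subtype.ext_iff, mem_subgroupOf]
  generalize E.map (centralizer {z}).subtype = E at k3 k4 k5 hT
  refine ZD.dvd_ncard_cj (P := centralizer {z}) (fun g k x e => And.intro (hi g k x e.1) fun e' => e.2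
    (Or.imp conj_eq_one_iff.1 (fun e' => mul_left_cancel ((mul_inv_eq_iff_eq_mul.1 e').trans
      (mem_centralizer_singleton_iff.1 k).symm)) e')) fun e he => ?_
  have k6 := Solv.card_inf_mul_relIndex (centralizer {e}) (centralizer {z})
  rw [card_cz hN S hz h] at k6
  refine (fact5.out.dvd_mul.1 ⟨384, k6⟩).resolve_left fun k => he.2 ?_
  obtain ⟨x, ⟨k7, k8⟩, k9⟩ := exm k
  have := eq_of_le_of_card_ge (show zpowers z ≤ centralizer {x} ⊓ E from zpowers_le.2
    ⟨mem_centralizer_singleton_iff.2 (mem_centralizer_singleton_iff.1 k8).symm, k5⟩) (by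
      rw [Nat.card_zpowers, hz]
      exact Nat.le_of_dvd two_pos (Nat.dvd_gcd ((ord5 hN k9).1 ▸ card_dvd_of_le inf_le_left)
        (k3 ▸ card_dvd_of_le (inf_le_right (b := E)))))
  classical
  simpa [mem_zpowers_iff_mem_range_orderOf, hz, Finset.range_add_one, eq_comm, or_comm] using this.ge
    ⟨mem_centralizer_singleton_iff.2 (mem_centralizer_singleton_iff.1 k7).symm, hT he.1⟩

theorem inv_uniq (hs : orderOf s = 2) (h' : (S : Subgroup G) ≤ centralizer {s}) (k0 : s ∈ S) : s = z := by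
  by_contra hn
  obtain ⟨E, e1, e2, e3, e4, e5, e6⟩ := exists_E2 hN S hz h
  have s1 : s ≠ 1 := by rintro rfl; simp at hs
  have z1 : z ≠ 1 := by rintro rfl; simp at hz
  have e7 : ∀ a ∈ S, (S : Subgroup G) ≤ centralizer {a} → a ∈ E := fun a k k' => by_contra fun e => by
    have := e5 a (h k) e
    rw [relIndex_eq_one.2 (e3.trans k')] at this
    omega
  obtain ⟨Ω, hΩ⟩ : ∃ Ω : Subgroup G, ∀ a, a ∈ Ω ↔ a ∈ E ∧ (∀ b ∈ E, Commute b a) ∧ a ^ 2 = 1 :=
    ⟨⟨⟨⟨{a | a ∈ E ∧ (∀ b ∈ E, Commute b a) ∧ a ^ 2 = 1}, fun k k' => ⟨mul_mem k.1 k'.1,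
      fun b e => (k.2.1 b e).mul_right (k'.2.1 b e), by rw [(k'.2.1 _ k.1).mul_pow, k.2.2, k'.2.2, one_mul]⟩⟩,
      one_mem _, fun _ _ => .one_right _, one_pow _⟩, fun k => ⟨inv_mem k.1, fun b e => (k.2.1 b e).inv_right, by
        rw [inv_pow, k.2.2, inv_one]⟩⟩, fun _ => .rfl⟩
  have o1 : Ω ≤ E := fun a k => ((hΩ a).1 k).1
  obtain rfl : Ω = E := eq_of_le_of_card_ge o1 (by
    have a1 := e6 Ω o1 fun g k x k' => by
      obtain ⟨k1, k2, k3⟩ := (hΩ x).1 k'
      refine (hΩ _).2 ⟨(mem_normalizer_iff.1 (e4 k) x).1 k1, fun b e => ?_, by rw [conj_pow, k3, mul_one, mul_inv_cancel]⟩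
      simpa [mul_assoc] using (k2 _ ((mem_normalizer_iff''.1 (e4 k) b).1 e)).map (MulAut.conj g)
    have a2 : {1, z, s} ⊆ (Ω : Set G) := by
      rintro _ (rfl | rfl | rfl)
      exacts [one_mem _, (hΩ _).2 ⟨e1, fun b k => mem_centralizer_singleton_iff.1 (h (e3 k)),
        hz ▸ pow_orderOf_eq_one _⟩, (hΩ _).2 ⟨e7 _ k0 h', fun b k => mem_centralizer_singleton_iff.1 (h' (e3 k)),
        hs ▸ pow_orderOf_eq_one _⟩]
    have a3 := Set.ncard_le_ncard a2
    rw [Set.ncard_sdiff (by grind), Set.ncard_pair z1.symm] at a1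
    rw [Set.ncard_eq_three.2 ⟨_, _, _, z1.symm, s1.symm, Ne.symm hn, rfl⟩] at a3
    exact (by decide : ∀ n ∈ Nat.divisors 32, 5 ∣ n - 2 → 3 ≤ n → 32 ≤ n) _
      (Nat.mem_divisors.2 ⟨e2 ▸ card_dvd_of_le o1, by simp⟩) a1 a3 |> e2.le.trans)
  simp only [iff_self_and] at hΩ
  obtain ⟨n, n1, n2⟩ := conj_of hN S hz h hs h'
  by_cases k : n ∈ normalizer (Ω : Set G)
  · have a0 : {y | ∃ g ∈ normalizer (Ω : Set G), g * z * g⁻¹ = y} ⊆ Ω := by
      rintro _ ⟨g, k, rfl⟩; exact (mem_normalizer_iff.1 k z).1 e1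
    have a1 := e6 _ a0 (by rintro g k _ ⟨m, k', rfl⟩; exact ⟨g * m, mul_mem (e4 k) k', by group⟩)
    have a2 := Set.ncard_le_ncard a0
    have a3 := Set.ncard_le_ncard (show {z, s} ⊆ {y | ∃ g ∈ normalizer (Ω : Set G), g * z * g⁻¹ = y} by
      rintro _ (rfl | rfl); exacts [⟨1, one_mem _, by simp⟩, ⟨n, k, n2⟩])
    have a4 := relIndex_dvd_index_of_le e4
    have a5 := (centralizer {z}).card_mul_index
    rw [card_cz hN S hz h, hN] at a5
    rw [show _ \ {1, z} = {y | ∃ g ∈ normalizer (Ω : Set G), g * z * g⁻¹ = y} \ {z} from Set.ext fun x =>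
      ⟨fun k => ⟨k.1, fun e => k.2 (.inr e)⟩, fun k => ⟨k.1, fun e => e.elim (by
        rintro rfl; obtain ⟨g, -, e⟩ := k.1; exact z1 (conj_eq_one_iff.1 e)) k.2⟩⟩,
      Set.ncard_sdiff_singleton_of_mem (by exact ⟨1, one_mem _, by simp⟩)] at a1
    rw [Set.ncard_pair (Ne.symm hn)] at a3
    rw [ZD.ncard_cl] at a1 a2 a3
    rw [show (centralizer {z}).index = 26163 by rw [N] at a5; omega] at a4
    replace a2 := a2.trans e2.le
    generalize (centralizer {z}).relIndex (normalizer (Ω : Set G)) = m at a1 a2 a3 a4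
    interval_cases m <;> omega
  have b0 := (card_map_of_injective (K := Ω) (f := (MulAut.conj n : G →* G)) (MulAut.conj n).injective).trans e2
  obtain ⟨a, a1, a2⟩ := SetLike.not_le_iff_exists.1 fun e => k (mem_normalizer_iff_map_conj_eq.2
    (eq_of_le_of_card_ge e (e2.trans b0.symm).le))
  have b1 := (map_mono e3).trans (mem_normalizer_iff_map_conj_eq.1 n1).le
  have b2 : ∀ y ∈ Ω.map (MulAut.conj n : G →* G), Ω.map (MulAut.conj n : G →* G) ≤ centralizer {y} := by
    rintro _ ⟨y, k, rfl⟩ _ ⟨x, k', rfl⟩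
    exact mem_centralizer_singleton_iff.2 (((hΩ y k).1 x k').map _)
  generalize Ω.map (MulAut.conj n : G →* G) = F at b0 b1 b2 a1
  have b3 := e5 a (h (b1 a1)) a2
  have b4 := relIndex_le_of_le_left (L := Ω) (b2 a a1) index_ne_zero_of_finite
  have b5 := relIndex_le_of_le_right (H := F) e3 index_ne_zero_of_finite
  have b6 := card_eq_relIndex_mul b1
  have b7 := Solv.card_inf_mul_relIndex F Ω
  have b8 := Solv.card_inf_mul_relIndex (centralizer {a}) Ω
  have b9 := Solv.card_sup_mul_card_inf_of_le_normalizer (b1.trans (h.trans e4))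
  rw [card_S hN S, b0] at b6
  rw [e2] at b7 b8 b9
  have c1 : Nat.card (F ⊓ Ω : Subgroup G) = 8 := by
    have : F.relIndex Ω ≤ 4 := by omega
    have : 3 ≤ F.relIndex Ω := by omega
    interval_cases F.relIndex Ω <;> omega
  have c2 := eq_of_le_of_card_ge (inf_le_inf_right Ω (b2 a a1)) (by
    have : (centralizer {a}).relIndex Ω ≤ 4 := by omega
    interval_cases (centralizer {a}).relIndex Ω <;> omega)
  have c3 := eq_of_le_of_card_ge (sup_le b1 e3) (by rw [card_S hN S]; rw [c1, b0] at b9; omega)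
  have c4 := ZD.ncard_of_trans_cj (S := (F ⊓ Ω : Subgroup G) \ {1}) (P := normalizer (S : Set G)) (x := z)
    (fun g k => by
      have k1 : (S : Subgroup G) ≤ centralizer {g * z * g⁻¹} := fun y k' => mem_centralizer_singleton_iff.2 (by
        simpa [mul_assoc] using congrArg (MulAut.conj g) (mem_centralizer_singleton_iff.1
          (h ((mem_normalizer_iff''.1 k y).1 k'))))
      exact ⟨c2 ▸ ⟨mem_centralizer_singleton_iff.2 (mem_centralizer_singleton_iff.1 (k1 (b1 a1))).symm,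
        e7 _ ((mem_normalizer_iff.1 k z).1 (e3 e1)) k1⟩, mt conj_eq_one_iff.1 z1⟩)
    fun y k => conj_of hN S hz h (orderOf_eq_prime (hΩ y k.1.2).2 k.2) (c3 ▸ sup_le (b2 y k.1.1) fun x k' =>
      mem_centralizer_singleton_iff.2 ((hΩ y k.1.2).1 x k'))
  rw [Set.ncard_sdiff_singleton_of_mem (one_mem _), show Set.ncard _ = 8 from c1] at c4
  exact absurd (hN ▸ (c4 ▸ relIndex_dvd_card _ _).trans (card_subgroup_dvd_card _)) (by norm_num)

omit hz h in
theorem cyc : IsCyclic (center (S : Subgroup G)) :=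
  Solv.isCyclic_of_abelian_of_omega (p := 2) (S.isPGroup'.to_subgroup _) fun x k y k' e e' hx => by
    by_cases hy : y = 1
    · exact hy ▸ one_mem _
    have : ∀ x ∈ center (S : Subgroup G), (S : Subgroup G) ≤ centralizer {(x : G)} := fun x k g e =>
      mem_centralizer_singleton_iff.2 (congrArg Subtype.val (mem_center_iff.1 k ⟨g, e⟩))
    rw [Subtype.ext (inv_uniq hN S ((orderOf_coe x).trans (orderOf_eq_prime e hx)) (this x k)
      ((orderOf_coe y).trans (orderOf_eq_prime e' hy)) (this y k') y.2)]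
    exact mem_zpowers x

end CF.Small.En.J3
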