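import Cfsg.Agent.Small.J3d

/-!
# Simple groups of order 50232960: stages of the search
-/

set_option autoImplicit false
set_option maxRecDepth 100000
set_option Elab.async false

namespace CF.Small.En.J3

theorem hA : DOK N A := dok_of [128, 243, 5, 17, 19] (by decide +kernel)

theorem t1 : addB N A ((params N A 19).filter (· != P19)) (cmpB N A 0 (addB N A (params N A 17)
    (addB N A (params N A 5) no))) [] [] [(1, [])] = true := by
  decide +kernel

theorem t2 : addB N A [P19] (addB N A ((params N A 17).filter (· != P17)) (cmpB N A 0 kA)) [] []
    [(1, [])] = true := by
  decide +kernel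

theorem tz : ((cands N A [P17, P19] [true, true] (fun _ => true) fun _ => true).all
    fun r => Z.contains r.1) = true := by
  decide +kernel

theorem t6 : ((CZ P5).all fun C => col [P5, P17, P19] 0 id (fun _ _ => true)
    (fun W => C == 1920 && tsum N 0 0 1 W == 196608000) W5 C) = true := by
  decide +kernel

theorem t3 : st (·.c ≤ 8) = true := by
  decide +kernel

end CF.Small.En.J3
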