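import Cfsg.Agent.Small.J3d

/-!
# Simple groups of order 50232960: stages of the search
-/

set_option autoImplicit false
set_option maxRecDepth 100000
set_option Elab.async false

namespace CF.Small.En.J3

theorem t4 : st (fun P => 8 < P.c && P.c ≤ 96) = true := by
  decide +kernel

end CF.Small.En.J3
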