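import Cfsg.Agent.Small.Cv5
import Cfsg.Agent.Small.J3d

/-!
# Pairs of involutions and principal blocks of defect one
-/

set_option autoImplicit false
set_option linter.unusedSectionVars false

namespace CF.Small

open Subgroup CF.BlockB Cfsg CF.PF Sv CF.Char En
open scoped ComplexConjugate

variable {p : ℕ} [hp : Fact p.Prime] {G : Type*} [Group G] [Finite G]

namespace PSet

variable (S : PSet p G) {χ ψ φ : G → ℂ}

/-- The number of conjugates in the complement that invert the Sylow subgroup. -/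
noncomputable def mI (w : G) : ℕ := Nat.card {h : G // IsConj w h ∧ h ∈ S.H ∧ S.act h = -1}

theorem card_pairs2 (h2 : p ≠ 2) {w w' : G} (hw : w ^ 2 = 1) (hw' : w' ^ 2 = 1) :
    ∑ i ∈ Finset.univ.erase 0, ∑ y ∈ els S.K,
      Nat.card {x : G × G // IsConj w x.1 ∧ IsConj w' x.2 ∧ x.1 * x.2 = S.zp i * y} =
      p * (p - 1) * (S.mI w * S.mI w') := by
  classical
  have := Fintype.ofFinite G
  have hK : ∀ {h h' : G}, h ∈ S.H → h' ∈ S.H → S.act h = -1 → S.act h' = -1 → h * h' ∈ S.K :=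
    fun k k' e e' => ⟨mul_mem k k', (S.act_eq_one_iff (S.H_le (mul_mem k k'))).1 (by
      rw [S.act_mul (S.H_le k) (S.H_le k'), e, e']; ring)⟩
  have hm : ∀ {h h' : G}, h ∈ S.H → h' ∈ S.H → S.act h = -1 → S.act h' = -1 → ∀ a b,
      h * S.zp a * (h' * S.zp b) = S.zp (b - a) * (h * h') := fun {h h'} k k' e e' a b => by
    rw [← (S.commute_zp (S.K_le_C (hK k k' e e')) _).eq, mul_assoc, ← mul_assoc (S.zp a),
      S.zp_mul_inv (S.H_le k') e', mul_assoc, ← S.zp_add, mul_assoc, neg_add_eq_sub]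
  have hi : ∀ {h h' : G} {a b}, h ∈ S.H → h' ∈ S.H → h * S.zp a = h' * S.zp b → h = h' ∧ a = b :=
    fun {h h' a b} k k' e => by
      have e1 : h'⁻¹ * h = S.zp (b - a) := by
        rw [sub_eq_add_neg, S.zp_add, S.zp_neg, inv_mul_eq_iff_eq_mul, ← mul_assoc, ← e,
          mul_inv_cancel_right]
      have e2 := S.eq_one_of_mem_P_H (e1 ▸ S.zp_mem _) (mul_mem (inv_mem k') k)
      rw [e2, eq_comm, S.zp_eq_one_iff, sub_eq_zero] at e1
      exact ⟨(inv_mul_eq_one.1 e2).symm, e1.symm⟩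
  simp only [mI, Nat.card_eq_fintype_card, Fintype.card_subtype]
  rw [← Finset.sum_product', ← Finset.card_sigma, show p * (p - 1) = (Finset.univ : Finset (ZMod p)).offDiag.card by
    rw [Finset.offDiag_card, Finset.card_univ, ZMod.card, Nat.mul_sub_one], ← Finset.card_product,
    ← Finset.card_product]
  symm
  refine Finset.card_bij (fun x _ => ⟨(x.1.2 - x.1.1, x.2.1 * x.2.2), (x.2.1 * S.zp x.1.1, x.2.2 * S.zp x.1.2)⟩)
    ?_ ?_ ?_
  · rintro ⟨⟨a, b⟩, h, h'⟩ k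
    simp only [Finset.mem_product, Finset.mem_offDiag, Finset.mem_filter, Finset.mem_univ, true_and,
      Finset.mem_sigma, Finset.mem_erase, and_true, mem_els] at k ⊢
    obtain ⟨k0, ⟨k1, k2, k3⟩, k4, k5, k6⟩ := k
    exact ⟨⟨sub_ne_zero.2 (Ne.symm k0), hK k2 k5 k3 k6⟩, k1.trans (S.isConj_mul_zp h2 (S.H_le k2) k3 a),
      k4.trans (S.isConj_mul_zp h2 (S.H_le k5) k6 b), hm k2 k5 k3 k6 a b⟩
  · rintro ⟨⟨a, b⟩, h, h'⟩ k ⟨⟨a', b'⟩, g, g'⟩ k' e
    simp only [Finset.mem_product, Finset.mem_filter, Finset.mem_univ, true_and, Sigma.mk.injEq,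
      heq_eq_eq, Prod.mk.injEq] at k k' e ⊢
    have := hi k.2.1.2.1 k'.2.1.2.1 e.2.1
    have := hi k.2.2.2.1 k'.2.2.2.1 e.2.2
    tauto
  · rintro ⟨⟨i, y⟩, x, x'⟩ k
    simp only [Finset.mem_product, Finset.mem_offDiag, Finset.mem_filter, Finset.mem_univ, true_and,
      Finset.mem_sigma, Finset.mem_erase, and_true, mem_els] at k ⊢
    obtain ⟨⟨k0, k1⟩, k2, k3, k4⟩ := k
    have hs : ∀ {w : G} x, w ^ 2 = 1 → IsConj w x → x * x = 1 := fun x hw e => by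
      rw [← sq]; exact isConj_one_right.1 (hw ▸ e.pow 2)
    have key : ∀ {w : G} t, IsConj w t → t * (x * x') * t⁻¹ = (x * x')⁻¹ →
        ∃ h a, (IsConj w h ∧ h ∈ S.H ∧ S.act h = -1) ∧ t = h * S.zp a := fun t e1 e2 => by
      rw [k4, mul_inv_rev, ← S.zp_neg, (S.commute_zp (S.K_le_C (inv_mem k1)) _).eq] at e2
      have e3 := S.mem_N_of_conj_eq k0 k1 (inv_mem k1) e2
      have e4 := S.lg_conj e3 (S.zp_mul_mem_C i k1)
      rw [e2, S.lg_zp_mul _ k1, S.lg_zp_mul _ (inv_mem k1), ← neg_one_mul, mul_left_inj' k0] at e4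
      obtain ⟨h, e5, a, rfl⟩ := S.exists_H_mul e3
      rw [S.act_mul (S.H_le e5) (S.P_le_N (S.zp_mem a)), S.act_of_mem_C (S.zp_mem_C a), mul_one] at e4
      exact ⟨h, a, ⟨e1.trans (S.isConj_mul_zp h2 (S.H_le e5) e4.symm a).symm, e5, e4.symm⟩, rfl⟩
    have e1 := inv_eq_of_mul_eq_one_left (hs x hw k2)
    have e2 := inv_eq_of_mul_eq_one_left (hs x' hw' k3)
    obtain ⟨h, a, k5, rfl⟩ := key x k2 (by rw [← mul_assoc, hs x hw k2, one_mul, mul_inv_rev, e2])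
    obtain ⟨h', b, k6, rfl⟩ := key x' k3 (by rw [← mul_assoc, mul_inv_cancel_right, mul_inv_rev, e1, e2])
    rw [hm k5.2.1 k6.2.1 k5.2.2 k6.2.2] at k4
    have e3 := congrArg S.lg k4
    have e4 := congrArg (pReg p) k4
    rw [S.lg_zp_mul _ k1, S.lg_zp_mul _ (hK k5.2.1 k6.2.1 k5.2.2 k6.2.2)] at e3
    rw [S.pReg_zp_mul _ k1, S.pReg_zp_mul _ (hK k5.2.1 k6.2.1 k5.2.2 k6.2.2)] at e4
    exact ⟨((a, b), h, h'), ⟨fun e => k0 (by rw [← e3]; exact sub_eq_zero.2 (Eq.symm e)), k5, k6⟩,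
      by simp only [e3, e4]⟩

theorem bil_eq (h2 : p ≠ 2) {w w' : G} (hw : w ^ 2 = 1) (hw' : w' ^ 2 = 1) {v v' : (G → ℂ) → ℤ}
    (h : ∀ χ ∈ irr (⊤ : Subgroup G), χ w = v χ) (h' : ∀ χ ∈ irr (⊤ : Subgroup G), χ w' = v' χ) :
      (∑ χ ∈ irr ⊤, v χ * v' χ * S.be χ * (Nat.card G / charDegree χ : ℕ)) * Nat.card S.K =
      p * (p - 1) * (Nat.card (centralizer ({w} : Set G)) * S.mI w) *
        (Nat.card (centralizer ({w'} : Set G)) * S.mI w') := by
  have h1 := congrArg (Nat.cast : ℕ → ℂ) (S.card_pairs2 h2 hw hw')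
  simp only [Nat.cast_sum, card_class_mul_eq, ← Finset.mul_sum, card_isConj_eq_index] at h1
  rw [Finset.sum_congr rfl fun i _ => Finset.sum_comm, Finset.sum_comm,
    ← sum_irr_top fun χ => ∑ i ∈ Finset.univ.erase 0, ∑ y ∈ els S.K, χ w * χ w' * conj (χ (S.zp i * y)) / χ 1,
    Finset.sum_congr rfl (g := fun χ => (v χ * v' χ * S.be χ * (Nat.card G / charDegree χ : ℕ) : ℤ) *
      (Nat.card S.K / Nat.card G : ℂ)) fun χ k => by
    have := card_ne_zero_complex (G := G)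
    have : (charDegree χ : ℂ) ≠ 0 := Nat.cast_ne_zero.2 (deg_pos k).ne'
    simp only [← Finset.sum_div, ← Finset.mul_sum, ← map_sum, S.sum_A (zirr_of_irr k), h χ k, h' χ k,
      ← coe_deg (isCh_of_irr k), map_mul, map_natCast, map_intCast, Int.cast_mul, Int.cast_natCast,
      Nat.cast_div (dvd_of_mem_dm (mem_dm.2 ⟨χ, k, rfl⟩)) this]
    field_simp, ← Finset.sum_mul, ← Int.cast_sum] at h1
  generalize (∑ χ ∈ irr ⊤, v χ * v' χ * S.be χ * (Nat.card G / charDegree χ : ℕ)) = q at h1 ⊢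
  apply Int.cast_injective (α := ℂ)
  have h3 := congrArg (Nat.cast : ℕ → ℂ) (centralizer ({w} : Set G)).card_mul_index
  have h4 := congrArg (Nat.cast : ℕ → ℂ) (centralizer ({w'} : Set G)).card_mul_index
  have := card_ne_zero_complex (G := G)
  push_cast [Nat.cast_pred hp.out.pos] at h1 h3 h4 ⊢
  field_simp at h1
  apply mul_left_cancel₀ (pow_ne_zero 2 this)
  generalize (Nat.card (centralizer ({w} : Set G)) : ℂ) = a at *
  generalize (Nat.card (centralizer ({w'} : Set G)) : ℂ) = b at *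
  linear_combination a * b * h1 - q * Nat.card S.K * (Nat.card G * h3 + a * (centralizer ({w} : Set G)).index * h4)

theorem ncard_inv_le : {h : G | h ∈ S.H ∧ S.act h = -1}.ncard ≤ Nat.card S.K := by
  rcases Set.eq_empty_or_nonempty {h : G | h ∈ S.H ∧ S.act h = -1} with e | ⟨a, h1, h2⟩
  · simp [e]
  refine Set.ncard_le_ncard_of_injOn (a⁻¹ * ·) (fun b hb => ?_) (fun _ _ _ _ e => mul_left_cancel e)
    (t := (S.K : Set G))
  exact ⟨S.H.mul_mem (inv_mem h1) hb.1, (S.act_eq_iff (S.H_le h1) (S.H_le hb.1)).1 (h2.trans hb.2.symm)⟩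

theorem mI_le (w : G) : S.mI w ≤ Nat.card S.K :=
  (Set.ncard_le_ncard (s := {h : G | IsConj w h ∧ h ∈ S.H ∧ S.act h = -1}) fun _ h => h.2).trans S.ncard_inv_le

theorem mI_add_le {w w' : G} (h : ¬ IsConj w w') : S.mI w + S.mI w' ≤ Nat.card S.K :=
  (Set.ncard_union_eq (s := {h : G | IsConj w h ∧ h ∈ S.H ∧ S.act h = -1})
    (t := {h : G | IsConj w' h ∧ h ∈ S.H ∧ S.act h = -1})
    (Set.disjoint_left.2 fun _ k k' => h (k.1.trans k'.1.symm))).ge.trans
    ((Set.ncard_le_ncard fun _ h => h.elim (·.2) (·.2)).trans S.ncard_inv_le)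

theorem mI_ne_two {w : G} (hw : w ^ 2 = 1) (h : ¬ 2 ∣ Nat.card S.K) : S.mI w ≠ 2 := fun e => by
  obtain ⟨a, b, h1, h2⟩ := Set.ncard_eq_two.1
    (show {h : G | IsConj w h ∧ h ∈ S.H ∧ S.act h = -1}.ncard = 2 from e)
  obtain ⟨a1, a2, a3⟩ := h2.ge (.inl rfl)
  obtain ⟨b1, b2, b3⟩ := h2.ge (.inr rfl)
  have a4 : a ^ 2 = 1 := isConj_one_right.1 (hw ▸ a1.pow 2)
  have b4 : b ^ 2 = 1 := isConj_one_right.1 (hw ▸ b1.pow 2)
  have h3 := S.act_mul (S.H_le a2) (S.H_le b2)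
  rcases (Set.ext_iff.1 h2 (a * b * a⁻¹)).1 ⟨b1.trans (isConj_iff.2 ⟨a, rfl⟩), mul_mem (mul_mem a2 b2) (inv_mem a2), by
    rw [S.act_mul (S.H_le (mul_mem a2 b2)) (S.H_le (inv_mem a2)), h3, S.act_inv (S.H_le a2), a3, b3]
    simp⟩ with k | k
  · exact h1 (mul_left_cancel (mul_inv_eq_iff_eq_mul.1 k)).symm
  have h4 : Commute a b := mul_inv_eq_iff_eq_mul.1 k
  refine h (orderOf_eq_prime (x := a * b) (by rw [h4.mul_pow, a4, b4, mul_one]) (fun k => h1 ?_) ▸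
    orderOf_dvd_natCard S.K ⟨mul_mem a2 b2, (S.act_eq_one_iff (S.H_le (mul_mem a2 b2))).1 (by
      rw [h3, a3, b3]; simp)⟩)
  exact mul_right_cancel (k.trans (by rw [← sq, b4]))

theorem quadM_of (h2 : p ≠ 2) {w : G} (hw : w ^ 2 = 1) {v : (G → ℂ) → ℤ}
    (h : ∀ χ ∈ irr (⊤ : Subgroup G), χ w = v χ) : J3.quadM S.pa (Nat.card (centralizer ({w} : Set G)))
      (∑ χ ∈ irr ⊤, v χ * v χ * S.be χ * (Nat.card G / charDegree χ : ℕ)) = true := by
  have h1 := S.bil_eq h2 hw hw h h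
  have h3 := S.quad_of h2 hw h
  simp only [mul_right_comm (_ * _ : ℤ) _ (S.be _)] at h3
  generalize (∑ χ ∈ irr ⊤, v χ * v χ * S.be χ * (Nat.card G / charDegree χ : ℕ)) = q at h1 h3 ⊢
  have h4 : (0 : ℤ) < Nat.card S.K := Int.natCast_pos.2 Nat.card_pos
  have h5 : (0 : ℤ) < p * (p - 1) * Nat.card (centralizer ({w} : Set G)) ^ 2 := by
    have := hp.out.two_le
    have : (0 : ℤ) < Nat.card (centralizer ({w} : Set G)) := Int.natCast_pos.2 Nat.card_pos
    have : (0 : ℤ) < p - 1 := by omega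
    positivity
  have h6 := Int.ofNat_le.2 (S.mI_le w)
  simp only [J3.quadM, pa, Bool.and_eq_true, decide_eq_true_eq, Bool.or_eq_true, beq_iff_eq,
    bne_iff_ne, Nat.cast_mul, Nat.cast_pow, Nat.cast_pred hp.out.pos, h1, or_iff_not_imp_left]
  refine ⟨⟨h3, le_of_mul_le_mul_right ?_ h4⟩, fun k e => S.mI_ne_two hw (mt Nat.mod_eq_zero_of_dvd k) ?_⟩
  · have := mul_le_mul_of_nonneg_left (mul_self_le_mul_self (Int.natCast_nonneg _) h6) h5.le
    linarith
  · have : (S.mI w : ℤ) ^ 2 = 2 ^ 2 := mul_left_cancel₀ h5.ne' (by push_cast at e; linarith)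
    exact_mod_cast (pow_left_inj₀ (Int.natCast_nonneg _) zero_le_two two_ne_zero).1 this

end PSet

namespace En.J3

theorem frcZ_eq {α : Type} (x : ℤ) (k : ℤ → α) : frcZ x k = k x := by cases x <;> simp only [frcZ, frc_eq]

theorem frcY_eq {α : Type} : ∀ (l : List ℤ) (k : List ℤ → α), frcY l k = k l
  | [], _ => rfl
  | a :: l, k => by rw [frcY, frcZ_eq, frcY_eq]

theorem frcO_eq {α : Type} (o : Row → List ℤ) : ∀ (W : List Row) (k : List (Row × List ℤ) → α),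
    frcO o W k = k (W.map fun r => (r, o r))
  | [], _ => rfl
  | a :: l, k => by rw [frcO, frcY_eq, frcO_eq]; rfl

theorem go_of {ι : Type*} {o : Row → List ℤ} {y : Row → Bool} {i B : ℕ} {lf : ℕ → ℤ → List Row → Bool}
    {F : ι → Row} {v : ι → ℤ} : ∀ (W : List Row) (pr : Row) (pv : ℤ) (b : ℕ) (s : ℤ) (acc : List Row)
      (T : Multiset ι), (∀ χ ∈ T, v χ ∈ o (F χ)) →
      (∀ χ ∈ T, ∀ ψ ∈ T, F χ = F ψ → y (F χ) = true → v χ = v ψ) → T.map F = W →
      (∀ χ ∈ T, F χ = pr → pv ≤ v χ ∧ (y pr = true → v χ = pv)) →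
      (T.map fun χ => (v χ).natAbs ^ 2).sum + B ≤ b →
      go y i lf (W.map fun r => (r, o r)) pr pv b s acc = true →
      ∃ (W' : List Row) (b' : ℕ), T.map (fun χ => ext (v χ) (F χ)) + acc = W' ∧ B ≤ b' ∧
        lf b' (s + (T.map fun χ => v χ * (F χ).at i).sum) W' = true
  | [], _, _, b, s, acc, T, _, _, h3, _, h5, h => by
    obtain rfl : T = 0 := by simpa using h3
    exact ⟨acc, b, by simp, by simpa using h5, by simpa [go] using h⟩
  | r :: W, pr, pv, b, s, acc, T, ho, hy, h3, h4, h5, h => by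
    classical
    obtain ⟨χ0, k0, k1, -⟩ := (Multiset.map_eq_cons F T W r).2 h3
    obtain ⟨χ, k2, k3⟩ := (T.toFinset.filter (F · = r)).exists_min_image v ⟨χ0, by simp [k0, k1]⟩
    simp only [Finset.mem_filter, Multiset.mem_toFinset, and_imp] at k2 k3
    obtain ⟨k2, rfl⟩ := k2
    obtain ⟨U, rfl⟩ := Multiset.exists_cons_of_mem k2
    have hs : ∀ ψ ∈ U, ψ ∈ χ ::ₘ U := fun ψ h => Multiset.mem_cons_of_mem h
    rw [Multiset.map_cons, ← Multiset.cons_coe, Multiset.cons_inj_right] at h3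
    rw [Multiset.map_cons, Multiset.sum_cons, sq] at h5
    have := List.all_eq_true.1 h _ (ho χ k2)
    simp only [Bool.or_eq_true, Bool.and_eq_true, beq_iff_eq, decide_eq_true_eq, bne_iff_ne, Nat.blt_eq,
      frc_eq, frcZ_eq] at this
    rcases this with (h | ⟨e, h⟩) | h
    · omega
    · obtain ⟨h6, h7⟩ := h4 χ k2 e
      rcases h with h | ⟨h, h'⟩
      exacts [absurd h h6.not_gt, absurd (h7 h) h']
    · obtain ⟨W', b', e1, e2, e3⟩ := go_of W _ _ _ _ _ U (fun ψ h => ho ψ (hs ψ h))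
        (fun a h c h' => hy a (hs a h) c (hs c h')) h3 (fun ψ h e => ⟨k3 ψ (hs ψ h) e,
        fun h' => (hy χ k2 ψ (hs ψ h) e.symm h').symm⟩) (B := B) (by omega) h
      exact ⟨W', b', by rw [← e1, ← Multiset.cons_coe, Multiset.map_cons, Multiset.cons_add, Multiset.add_cons],
        e2, by rwa [Multiset.map_cons, Multiset.sum_cons, ← add_assoc]⟩

theorem st_tsum {ι : Type*} {I : Finset ι} {F : ι → Row} {Z : ι → Prop} {W : List Row} (h : St I F Z W)
    (i j : ℕ) {k : ℕ} (hk : ∀ a, Z a → (F a).at k = 0) : tsum N i j k W =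
      ∑ a ∈ I, (F a).at i * (F a).at j * (F a).at k * (N / (F a).1 : ℕ) := by
  obtain ⟨s, h1, h2, h3⟩ := h
  rw [tsum_eq, ← sum_map_eq h2]
  exact Finset.sum_subset h1 fun a e e' => by rw [hk a (h3 a e e'), mul_zero, zero_mul]

variable [IsSimpleGroup G] (hN : Nat.card G = N)
include hN

theorem hG : ¬ IsMulCommutative G := nc_of_card hN (by norm_num)

theorem st_col {F : (G → ℂ) → Row} {Z : (G → ℂ) → Prop} {W : List Row} (h : St (irr ⊤) F Z W) {x : BC G}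
    {cs : List (BC G)} {i : ℕ} (hi : ∀ χ, (F χ).at i = x.S.be χ) (hZ : ∀ χ, Z χ → x.S.be χ = 0)
    {g : Row → Row} (hg : ∀ χ, g (F χ) = rowF (x :: cs) χ) (hd : ∀ χ, (F χ).1 = charDegree χ)
    {f : Row → ℤ → Bool} {w : G} (hw : orderOf w = 2)
    (hf : ∀ χ ∈ irr ⊤, F χ ∈ W → f (rowF (x :: cs) χ) (iv w χ) = true) {k : List Row → Bool}
    (hk : col (pars (x :: cs)) i g f k W (Nat.card (centralizer ({w} : Set G))) = true) :
    ∃ W', St (irr ⊤) (fun χ => ext (iv w χ) (F χ)) Z W' ∧ k W' = true := by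
  classical
  have h1 : w ^ 2 = 1 := hw ▸ pow_orderOf_eq_one w
  have h2 := fun χ (k : χ ∈ irr ⊤) => invol_val (commutator_eq_top (hG hN)) (isCh_of_irr k) h1
  rcases W with _ | ⟨r, W⟩
  · simp [col] at hk
  obtain ⟨s, k1, k2, k3⟩ := h
  obtain ⟨χ, k4, rfl, k5⟩ := (Multiset.map_eq_cons F s.val W r).2 k2
  have k6 := Multiset.cons_erase k4
  generalize s.val.erase χ = T at k5 k6
  have hs : ∀ ψ ∈ χ ::ₘ T, ψ ∈ irr ⊤ := fun ψ e => k1 (show ψ ∈ s.val from k6 ▸ e)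
  have ho : ∀ ψ ∈ χ ::ₘ T, iv w ψ ∈ (vopts N (pars (x :: cs)) (Nat.card (centralizer ({w} : Set G)))
      (g (F ψ))).filter (f (g (F ψ))) := fun ψ e => by
    rw [hg]
    exact List.mem_filter.2 ⟨mem_vopts (hG hN) hN (hs ψ e) hw, hf ψ (hs ψ e)
      (Multiset.mem_coe.1 (k2 ▸ k6 ▸ Multiset.mem_map_of_mem F e))⟩
  simp only [col, frcY_eq, frcO_eq, Bool.and_eq_true, bne_iff_ne] at hk
  have k7 := (Finset.sum_le_sum_of_subset k1).trans_eq (sum_sq_eq fun χ k => (h2 χ k).1)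
  rw [Finset.sum, ← k6, Multiset.map_cons, Multiset.sum_cons, add_comm] at k7
  obtain ⟨W', b, e1, e2, e3⟩ := go_of (v := iv w) W _ _ _ _ _ T
    (fun ψ e => ho ψ (Multiset.mem_cons_of_mem e)) (fun a ha c hc e e' => by
      obtain ⟨p, s, k1, k2, k3⟩ := gal_of_any (hs a (Multiset.mem_cons_of_mem ha))
        (hs c (Multiset.mem_cons_of_mem hc)) (by rw [← hg, ← hg, e]) (hg a ▸ e')
      rw [iv, iv, k3, k1.2 w (hw ▸ k2)]) k5
    (fun ψ e e' => absurd ((hd ψ).symm.trans (congrArg Prod.fst e'))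
      (deg_pos (hs ψ (Multiset.mem_cons_of_mem e))).ne') k7 hk.2
  have e4 : St (irr ⊤) (fun χ => ext (iv w χ) (F χ)) Z (ext (iv w χ) (F χ) :: W') :=
    ⟨s, k1, by rw [← k6, Multiset.map_cons, ← Multiset.cons_coe, ← e1]; simp, k3⟩
  have e5 := x.S.sum_be_reg (g := w) (hw ▸ mt (Nat.prime_dvd_prime_iff_eq x.hp.out Nat.prime_two).1 x.h2)
  rw [Finset.sum_congr rfl fun χ k => by rw [(h2 χ k).1, mul_comm, ← Int.cast_mul, ← hi], ← Int.cast_sum,
    Int.cast_eq_zero, ← Finset.sum_subset k1 fun a e e' => by rw [hi, hZ a (k3 a e e'), mul_zero],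
    Finset.sum, ← k6, Multiset.map_cons, Multiset.sum_cons] at e5
  refine ⟨_, e4, ?_⟩
  rw [lst, frcZ_eq, frcZ_eq, zero_add, ← eq_neg_of_add_eq_zero_left e5, Int.mul_ediv_cancel _ hk.1, e5,
    st_tsum e4 0 0 (k := i + 1) fun a e => (hi a).trans (hZ a e)] at e3
  simp only [show ∀ a r, (ext a r).at 0 = a from fun _ _ => rfl, show ∀ a r, (ext a r).at (i + 1) = r.at i from
    fun _ _ => rfl, show ∀ a r, (ext a r).1 = r.1 from fun _ _ => rfl, hi, hd, ← hN] at e3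
  rw [show (pars (x :: cs)).getD 0 default = x.S.pa from rfl, x.S.quadM_of x.h2 h1 fun χ k => (h2 χ k).1,
    hN, List.contains_iff_mem.2 (ho χ (Multiset.mem_cons_self _ _))] at e3
  simpa [← sq, e2.not_gt] using e3

end En.J3

end CF.Small
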