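import Cfsg.Agent.Small.J3e
import Cfsg.Agent.Small.J3a

/-!
# Simple groups of order 50232960: values at involutions
-/

set_option autoImplicit false
set_option linter.unusedSectionVars false

namespace CF.Small

open Subgroup CF.BlockB Cfsg CF.PF Sv CF.Char En
open scoped ComplexConjugate

variable {p : ℕ} [hp : Fact p.Prime] {G : Type*} [Group G] [Finite G] {χ : G → ℂ}

theorem PSet.exists_fix (S : PSet p G) (h : IsCh ⊤ χ) : ∃ L, IsCh S.N L ∧
    L 1 = mu S.P χ (triv S.P) ∧ ∀ q ∈ S.N, q ∉ S.C → χ q = L q := by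
  classical
  have h1 := h.res (le_top (a := S.N))
  have h2 := fun q => congrFun (IsCh.eq_sum_mu h1) q
  refine ⟨∑ θ ∈ irr S.N with S.P ≤ charKer θ, (mu S.N (res S.N χ) θ : ℂ) • θ, IsCh.sum _ fun θ k =>
    (isCh_of_irr (Finset.mem_filter.1 k).1).natCast_smul _, ?_, fun q k k' => ?_⟩
  · rw [coe_mu le_top h (isCh_triv _), ← ip_congr _ (fun x hx => res_of_mem χ (S.P_le_N hx)) fun _ _ => rfl,
      ← coe_mu S.P_le_N h1 (isCh_triv _), mu_eq_sum_mu S.P_le_N h1 (isCh_triv _), Finset.sum_apply,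
      Finset.sum_filter, Nat.cast_sum]
    refine Finset.sum_congr rfl fun θ k => ?_
    rw [Nat.cast_mul, coe_mu S.P_le_N (isCh_of_irr k) (isCh_triv _)]
    split_ifs with e
    · rw [ip_triv_of_le_ker e]; rfl
    · have := sum_coset_eq_zero' S.P_le_N le_rfl k e 1
      simp only [mul_one] at this
      rw [ip_triv_right, this]; simp
  · rw [← res_of_mem χ k, h2, Finset.sum_apply, Finset.sum_apply, Finset.sum_filter]
    refine Finset.sum_congr rfl fun θ j => ?_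
    split_ifs with e
    · rfl
    · rw [Pi.smul_apply, irr_apply_eq_zero_of_fpf S.P_le_N le_rfl j e fun u hu e => ?_, smul_zero]
      obtain ⟨i, rfl⟩ := S.mem_P_iff.1 hu
      by_contra hi
      exact k' (S.mem_C_of_commute (mt S.zp_eq_one_iff.2 hi) e.symm)

theorem sq_zero {ζ : ℂ} (h : ζ ^ 4 = -1) {x y : ℤ} (e : x + y * ζ ^ 2 = 0) : x = 0 ∧ y = 0 := by
  have : x ^ 2 + y ^ 2 = 0 := Int.cast_injective (α := ℂ) (by
    push_cast; linear_combination (x - y * ζ ^ 2) * e + y ^ 2 * h)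
  constructor <;> nlinarith

theorem ord8 (hG : commutator G = ⊤) (h : IsCh ⊤ χ) {g : G} (hg : orderOf g = 8) (h5 : χ (g ^ 5) = χ g)
    (h6 : χ (g ^ 6) = χ (g ^ 2)) {a : ℤ} (ha : χ (g ^ 4) = a) :
    8 ∣ a - charDegree χ ∧ (χ g = 0 → χ (g ^ 2) = 0 → 16 ∣ charDegree χ + a) := by
  classical
  obtain ⟨n, ω, h1, h2, h3⟩ := char_exists_roots (isCh_top.1 h) g
  rw [hg] at h2
  have hζ := Complex.isPrimitiveRoot_exp 8 (by norm_num)
  generalize Complex.exp _ = ζ at hζ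
  have z4 : ζ ^ 4 = -1 := (hζ.pow (by norm_num) (rfl : 8 = 4 * 2)).eq_neg_one_of_two_right
  have z0 : ζ ≠ 0 := hζ.ne_zero (by norm_num)
  choose e he he' using fun i => hζ.eq_pow_of_pow_eq_one (h2 i)
  have h7 := congrArg Units.val (hom_eq_one_of_perfect hG (Clifford.detHom (isCh_top.1 h)) g)
  rw [Clifford.coe_detHom, detChar_eq_prod (isCh_top.1 h) ω (fun i e => by simpa [e] using h2 i)
    (z := g) fun k => by simpa using h3 k] at h7
  have hs : ∀ k : ℕ, χ (g ^ k) = ∑ j ∈ Finset.range 8, (Finset.univ.filter (e · = j)).card * (ζ ^ j) ^ k :=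
    fun k => by
      rw [← zpow_natCast, h3, ← Finset.sum_fiberwise_of_maps_to (fun i _ => Finset.mem_range.2 (he i))]
      exact Finset.sum_congr rfl fun j _ => by
        rw [Finset.sum_congr rfl (g := fun _ => (ζ ^ j) ^ k) fun i k => by
          rw [← he', (Finset.mem_filter.1 k).2, zpow_natCast]]; simp
  rw [← Finset.prod_fiberwise_of_maps_to (fun i _ => Finset.mem_range.2 (he i)), Finset.prod_congr rfl
    (g := fun j => (ζ ^ j) ^ (Finset.univ.filter (e · = j)).card) fun j _ => by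
      rw [Finset.prod_congr rfl (g := fun _ => ζ ^ j) fun i k => by
          rw [← he', (Finset.mem_filter.1 k).2]]; simp] at h7
  obtain ⟨m, hm⟩ : ∃ m : ℕ → ℕ, ∀ j, (Finset.univ.filter (e · = j)).card = m j := ⟨_, fun _ => rfl⟩
  have hz : ∀ n, ζ ^ (n + 4) = -ζ ^ n := fun n => by rw [pow_add, z4]; ring
  have k0 := hs 0
  have k1 := hs 1
  have k2 := hs 2
  have k4 := hs 4
  have k5 := hs 5
  have k6 := hs 6
  simp only [hm, Finset.sum_range_succ, Finset.prod_range_succ, Finset.range_zero, Finset.sum_empty,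
    Finset.prod_empty, ← pow_mul, Nat.reduceMul, hz, neg_neg, pow_zero, pow_one, h1, h5, h6, ha, one_mul,
    ← pow_add, Units.val_one] at k0 k1 k2 k4 k5 k6 h7
  obtain ⟨e1, e2⟩ := sq_zero z4 (x := m 1 - m 5) (y := m 3 - m 7) (mul_left_cancel₀ (mul_ne_zero two_ne_zero z0)
    (by push_cast; linear_combination k5 - k1))
  obtain ⟨-, e3⟩ := sq_zero z4 (x := 0) (y := m 1 + m 5 - m 3 - m 7)
    (by push_cast; linear_combination (k6 - k2) / 2)
  have e4 := (hζ.pow_eq_one_iff_dvd _).1 h7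
  rw [(deg_eq_iff h).2 h1]
  norm_cast at k0 k4
  refine ⟨by omega, fun a1 a2 => ?_⟩
  obtain ⟨e5, e6⟩ := sq_zero z4 (x := m 0 - m 4) (y := m 2 - m 6)
    (by push_cast; linear_combination a1 - (k1 + k5) / 2)
  have e7 : (m 0 + m 4 - m 2 - m 6 : ℤ) = 0 := Int.cast_injective (α := ℂ)
    (by push_cast; linear_combination a2 - (k2 + k6) / 2)
  omega

namespace En.J3

instance fact5 : Fact (Nat.Prime 5) := ⟨by norm_num⟩

instance fact17 : Fact (Nat.Prime 17) := ⟨by norm_num⟩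

instance fact19 : Fact (Nat.Prime 19) := ⟨by norm_num⟩

/-- A column. -/
abbrev bc {p : ℕ} [hp : Fact p.Prime] (S : PSet p G) (h : p ≠ 2 := by decide) : BC G := ⟨p, hp, h, S⟩

variable [IsSimpleGroup G] (hN : Nat.card G = N) {cs : List (BC G)} {Z : (G → ℂ) → Prop} {W : List Row}
include hN

theorem rat8 (h : St (irr ⊤) (rowF cs) Z W) (hZ : ∀ χ, Z χ → (rowF cs χ).at 0 = 0) (hW : W.all (·.at 0 != 0) = true)
    (i : χ ∈ irr (⊤ : Subgroup G)) (k : (W.count (rowF cs χ) == 1 || anyY (pars cs) (rowF cs χ)) = true) {g : G}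
    (hg : g ^ 8 = 1) {s : ℕ} (hs : s.Coprime N) : χ (g ^ s) = χ g := by
  rw [← hN] at hs
  have e := rowF_pow (cs := cs) hs i (pw_mem i hs) fun _ => rfl
  rcases Bool.or_eq_true_iff.1 k with k | k
  · have k1 := bne_iff_ne.1 (List.all_eq_true.1 hW _ (List.count_pos_iff.1 (beq_iff_eq.1 k).ge))
    exact congrFun (h.eq_of_count i (pw_mem i hs) (mt (hZ _) k1) (mt (hZ _) (e ▸ k1)) e (beq_iff_eq.1 k)) g
  · obtain ⟨j, hj, k⟩ := List.any_eq_true.1 k
    obtain ⟨t, k1, k2, k3⟩ := gal_of (List.mem_range.1 hj) i (pw_mem i hs) k (e ▸ k)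
    obtain ⟨x, k4, -⟩ := En.col (List.mem_range.1 hj)
    rw [k4] at k1 k2
    exact (k3 g).trans (by rw [k1.2 g fun k => k2 (x.hp.out.dvd_of_dvd_pow (n := 3)
      (k.trans (orderOf_dvd_of_pow_eq_one hg)))])

theorem tOK_of (S : PSet 17 G) (hS : S.pa = P17) (h : St (irr ⊤) (rowF cs) Z W)
    (hZ : ∀ χ, Z χ → (rowF cs χ).at 0 = 0) (hW : W.all (·.at 0 != 0) = true) (h1 : ∀ χ, (rowF cs χ).at 1 = S.be χ)
    {g : G} (hg : g ∈ S.H) (h8 : orderOf g = 8) (i : χ ∈ irr (⊤ : Subgroup G)) :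
    tOK (pars cs) W (rowF cs χ) (iv (g ^ 4) χ) = true := by
  have hc := commutator_eq_top (hG hN)
  have hK : Nat.card S.K = 1 := congrArg (·.c) hS
  have g8 : g ^ 8 = 1 := h8 ▸ pow_orderOf_eq_one g
  have ha := (invol_val hc (isCh_of_irr i) (w := g ^ 4) (by rw [← pow_mul, g8])).1
  obtain ⟨L, k1, k2, k3⟩ := S.exists_fix (isCh_of_irr i)
  replace k3 : ∀ n, n ≠ 0 → n < 8 → χ (g ^ n) = L (g ^ n) := fun n a b => k3 _ (S.H_le (pow_mem hg n))
    (PSet.notMem_C_of_mem_H (card_eq_one.1 hK) (pow_mem hg n) (pow_ne_one_of_lt_orderOf a (h8 ▸ b)))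
  have k4 := S.tz_eq_be i (.inr hK)
  have k5 := k1.norm_le (g ^ 4)
  rw [← k3 4 (by simp) (by simp), ha, k2, Complex.norm_intCast, Complex.norm_natCast, ← Int.cast_abs,
    ← Nat.cast_natAbs, Nat.cast_le] at k5
  simp only [tOK, Bool.and_eq_true, decide_eq_true_eq, h1, show (rowF cs χ).1 = charDegree χ from rfl, ← k4,
    PSet.tz, Bool.or_eq_true (!_), Bool.not_eq_true', or_iff_not_imp_left, Bool.not_eq_false]
  refine ⟨by omega, fun k => ?_⟩
  have k6 := rat8 hN h hZ hW i k g8 (s := 13) (by norm_num)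
  have k7 := rat8 hN h hZ hW i k (g := g ^ 2) (by rw [pow_right_comm, g8, one_pow]) (s := 11) (by norm_num)
  rw [pow_eq_pow_mod _ g8] at k6
  rw [← pow_mul, pow_eq_pow_mod _ g8] at k7
  obtain ⟨k8, k9⟩ := ord8 hc (isCh_of_irr i) h8 k6 k7 ha
  simp only [Bool.or_eq_true, beq_iff_eq, bne_iff_ne, or_iff_not_imp_right, not_not]
  refine ⟨Int.emod_eq_zero_of_dvd k8, fun e => ?_⟩
  have e1 : L (g ^ 4) = -L 1 := by
    rw [← k3 4 (by simp) (by simp), ha, k2, show iv (g ^ 4) χ = -mu S.P χ (triv S.P) by omega]; simp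
  obtain ⟨c, e2⟩ := (mem_charCenter_iff k1.2 (g := ⟨g ^ 4, S.H_le (pow_mem hg 4)⟩)).2 (by simp [e1])
  have e3 : ∀ n, n ≠ 0 → n < 4 → χ (g ^ (4 + n)) = -χ (g ^ n) := fun n a b => by
    have a1 := e2 1
    have a2 := e2 ⟨g ^ n, S.H_le (pow_mem hg n)⟩
    have a3 := k1.norm_le (g ^ n)
    simp only [mul_one, coe_mul, ← pow_add, e1, coe_one] at a1 a2
    rw [k3 _ (by omega) (by omega), k3 _ a (by omega), a2]
    by_cases a4 : L 1 = 0
    · simp [show L (g ^ n) = 0 by simpa [a4] using a3]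
    · rw [mul_right_cancel₀ a4 (a1.symm.trans (neg_one_mul _).symm), neg_one_mul]
  have := k9 (by have := e3 1; simp only [pow_one] at this; linear_combination (this (by simp) (by simp) - k6) / 2)
    (by linear_combination (e3 2 (by simp) (by simp) - k7) / 2)
  omega

theorem not_bil {F : (G → ℂ) → Row} {x : BC G} {w w' : G}
    (h : St (irr ⊤) (fun χ => ext (iv w' χ) (ext (iv w χ) (F χ))) Z W) (h0 : ∀ χ, (F χ).at 0 = x.S.be χ)
    (hd : ∀ χ, (F χ).1 = charDegree χ) (hZ : ∀ χ, Z χ → x.S.be χ = 0) (hw : orderOf w = 2) (hw' : orderOf w' = 2) :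
    bil W ≠ true := by
  have h1 : w ^ 2 = 1 := hw ▸ pow_orderOf_eq_one w
  have h2 : w' ^ 2 = 1 := hw' ▸ pow_orderOf_eq_one w'
  have h3 := fun χ (k : χ ∈ irr ⊤) => (invol_val (commutator_eq_top (hG hN)) (isCh_of_irr k) h1).1
  have h4 := fun χ (k : χ ∈ irr ⊤) => (invol_val (commutator_eq_top (hG hN)) (isCh_of_irr k) h2).1
  have e1 := x.S.bil_eq x.h2 h2 h1 h4 h3
  have e2 := x.S.bil_eq x.h2 h2 h2 h4 h4
  have e3 := x.S.bil_eq x.h2 h1 h1 h3 h3
  have e := fun i j => st_tsum h i j (k := 2) fun a e => (h0 a).trans (hZ a e)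
  rw [bil, e, e, e]
  simp only [show ∀ a r, (ext a r).at 0 = a from fun _ _ => rfl, show ∀ a b r, (ext a (ext b r)).at 1 = b from
    fun _ _ _ => rfl, show ∀ a b r, (ext a (ext b r)).at 2 = r.at 0 from fun _ _ _ => rfl,
    show ∀ a r, (ext a r).1 = r.1 from fun _ _ => rfl, h0, hd, ← hN, ne_eq, bne_iff_ne, not_not]
  refine mul_right_cancel₀ (pow_ne_zero 2 (Int.natCast_ne_zero.2 (Nat.card_pos (α := x.S.K)).ne')) ?_
  rw [sq, mul_mul_mul_comm, e1, mul_mul_mul_comm _ _ (Nat.card x.S.K : ℤ), e2, e3]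
  ring

variable (R : PSet 5 G) {S : PSet 17 G} {T : PSet 19 G} (hS : S.pa = P17) (hT : T.pa = P19)
include hS hT

theorem dvd_cent {w : G} (hw : orderOf w = 2) : 155520 % Nat.card (centralizer ({w} : Set G)) = 0 := by
  have h1 : w ≠ 1 := by rintro rfl; simp at hw
  have h2 := PSet.not_dvd_card_centralizer (S := S) (card_eq_one.1 (congrArg (·.c) hS)) h1 (by simp [hw])
  have h3 := PSet.not_dvd_card_centralizer (S := T) (card_eq_one.1 (congrArg (·.c) hT)) h1 (by simp [hw])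
  refine Nat.mod_eq_zero_of_dvd ((fact17.out.coprime_iff_not_dvd.2 h2).symm.dvd_of_dvd_mul_left
    ((fact19.out.coprime_iff_not_dvd.2 h3).symm.dvd_of_dvd_mul_left ?_))
  exact (card_subgroup_dvd_card _).trans (dvd_of_eq hN)

theorem mem_CT {w : G} (hw : orderOf w = 2) (h : 8 ∣ Nat.card (centralizer ({w} : Set G))) :
    Nat.card (centralizer ({w} : Set G)) ∈ CT R.pa := by
  simp only [CT, List.mem_filter, Bool.and_eq_true, beq_iff_eq, Bool.or_eq_true, bne_iff_ne, dvd_cent hN hS hT hw,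
    hA _ (hN ▸ card_subgroup_dvd_card _), Nat.mod_eq_zero_of_dvd h, true_and, or_iff_not_imp_left, not_not]
  intro k
  obtain ⟨⟨x, k1⟩, k2⟩ := exists_prime_orderOf_dvd_card' 5 (Nat.dvd_of_mod_eq_zero k)
  have := orderOf_dvd_natCard _ (mem_centralizer_singleton_iff.2 (mem_centralizer_singleton_iff.1 k1).symm)
  rw [R.card_cent' ((orderOf_mk _ k1).symm.trans k2), hw] at this
  change Nat.card R.K % 2 = 0
  omega

omit R in
theorem mem_CZ {w : G} (hw : orderOf w = 2) (h : 128 ∣ Nat.card (centralizer ({w} : Set G))) (R : PSet 5 G) :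
    Nat.card (centralizer ({w} : Set G)) ∈ CZ R.pa :=
  List.mem_filter.2 ⟨mem_CT hN R hS hT hw (by omega), beq_iff_eq.2 (Nat.mod_eq_zero_of_dvd h)⟩

variable (h : St (irr ⊤) (rowF [bc R, bc S, bc T]) Z W) (hZ : ∀ χ, Z χ → R.be χ = 0)
  (hW : W.all (·.at 0 != 0) = true)
include h hZ hW

theorem exists_tt : ∃ t : G, orderOf t = 2 ∧ Nat.card (centralizer ({t} : Set G)) ∈ CT R.pa ∧
    ∀ χ ∈ irr ⊤, tOK (pars [bc R, bc S, bc T]) W (rowF [bc R, bc S, bc T] χ) (iv t χ) = true := by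
  obtain ⟨g, k1, k2⟩ := S.exists_H_eq (card_eq_one.1 (congrArg (·.c) hS))
  replace k2 : orderOf g = 8 := k2.trans (congrArg (·.e) hS)
  have k3 : orderOf (g ^ 4) = 2 := by rw [orderOf_pow, k2]; rfl
  exact ⟨_, k3, mem_CT hN R hS hT k3 (k2 ▸ orderOf_dvd_natCard _
    (mem_centralizer_singleton_iff.2 (Commute.self_pow g 4))),
    fun χ => tOK_of hN S hS h hZ hW (fun _ => rfl) (k1 ▸ mem_zpowers g) k2⟩

theorem not_tu (fl : List Bool) : tu (pars [bc R, bc S, bc T]) fl W ≠ true := fun k => by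
  obtain ⟨t, k1, k2, k3⟩ := exists_tt hN R hS hT h hZ hW
  obtain ⟨W, k4, k5⟩ := st_col hN h (x := bc R) (fun _ => rfl) hZ (fun _ => rfl) (fun _ => rfl) k1
    (fun χ i _ => k3 χ i) (List.all_eq_true.1 k _ k2)
  rw [Bool.and_eq_true] at k5
  obtain ⟨u, k6, k7⟩ := R.exists_k (hG hN) (hN ▸ hA) (by decide) (Nat.dvd_of_mod_eq_zero (beq_iff_eq.1 k5.1))
  obtain ⟨W, k8, k9⟩ := st_col hN k4 (x := bc R) (fun _ => rfl) hZ (fun _ => rfl) (fun _ => rfl) k6
    (fun _ _ _ => rfl) (List.all_eq_true.1 k5.2 _ (List.mem_filter.2 ⟨hN ▸ k7, beq_iff_eq.2 (dvd_cent hN hS hT k6)⟩))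
  exact not_bil hN k8 (x := bc R) (fun _ => rfl) (fun _ => rfl) hZ k1 k6 k9

theorem not_zt (fl : List Bool) : zt (pars [bc R, bc S, bc T]) fl W ≠ true := fun k => by
  obtain ⟨t, k1, k2, k3⟩ := exists_tt hN R hS hT h hZ hW
  obtain ⟨u, k6, k7⟩ := exists_central (p := 2) (G := G) (by norm_num [hN])
  obtain ⟨W, k4, k5⟩ := st_col hN h (x := bc R) (fun _ => rfl) hZ (fun _ => rfl) (fun _ => rfl) k6
    (fun _ _ _ => rfl) (List.all_eq_true.1 k _ (mem_CZ hN hS hT k6 ((((Nat.prime_two.coprime_iff_not_dvd.2 k7).pow_left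
      7).dvd_of_dvd_mul_right (by rw [card_mul_index, hN]; norm_num))) R))
  obtain ⟨W, k8, k9⟩ := st_col hN k4 (x := bc R) (fun _ => rfl) hZ (fun _ => rfl) (fun _ => rfl) k1
    (fun χ i _ => k3 χ i) (List.all_eq_true.1 k5 _ k2)
  exact not_bil hN k8 (x := bc R) (fun _ => rfl) (fun _ => rfl) hZ k6 k1 k9

end En.J3

end CF.Small
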