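import Cfsg.Agent.Small.J3f
import Cfsg.Agent.ZD.Orb

/-!
# Simple groups of order 50232960: the normalizer of a Sylow `17`-subgroup
-/

set_option autoImplicit false
set_option linter.unusedSectionVars false

namespace CF.Small.En.J3

open Subgroup CF.BlockB Cfsg CF.PF Sv CF.Char

variable {G : Type*} [Group G] [Finite G]

section

variable (S : PSet 17 G) (hK : Nat.card S.K = 9) (hf : S.fi = 16)

theorem exm {p : ℕ} [Fact p.Prime] {H : Subgroup G} (h : p ∣ Nat.card H) : ∃ y ∈ H, orderOf y = p :=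
  let ⟨y, k⟩ := exists_prime_orderOf_dvd_card' p h; ⟨y, y.2, (orderOf_coe y).trans k⟩

theorem mem_P {y : G} (h : y ∈ S.N) (h1 : orderOf y = 17) : y ∈ S.P := by
  have h2 := congrArg S.actHom (show (⟨y, h⟩ : S.N) ^ 17 = 1 from Subtype.ext (orderOf_dvd_iff_pow_eq_one.1 h1.dvd))
  rw [map_pow, pow_succ, ZMod.units_pow_card_sub_one_eq_one 17, one_mul, map_one] at h2
  obtain ⟨i, k, hk, rfl⟩ := S.exists_mul_of_mem_C ((S.act_eq_one_iff h).1 (congrArg Units.val h2))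
  have h3 := pow_orderOf_eq_one (S.zp i * k)
  rw [h1, (S.commute_zp (S.K_le_C hk) i).symm.mul_pow, S.zp_pow_p, one_mul] at h3
  obtain rfl : k = 1 := by_contra fun e => S.K_reg hk (dvd_of_eq (orderOf_eq_prime h3 e).symm)
  exact mul_mem (S.zp_mem i) (one_mem _)

include hK

theorem pow_cent {m k : G} (hm : m ∈ normalizer (S.K : Set G)) (hk : k ∈ S.K) : m ^ 2520 ∈ centralizer {k} := by
  have h1 := ZD.relIndex_le_cj (P := normalizer (S.K : Set G)) (S := S.K) (x := k) fun g hg =>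
    (mem_normalizer_iff.1 hg k).1 hk
  refine (pow_mem_of_relIndex_ne_zero_of_dvd index_ne_zero_of_finite hm fun n a b => ?_).1
  have : n ≤ 9 := b.trans (h1.trans hK.le)
  interval_cases n <;> norm_num

theorem act_inv {s : G} (hs : s ∈ S.N) (h : orderOf s = 2) : S.act s = -1 := by
  have h1 := S.act_mul hs hs
  rw [← sq, ← h, pow_orderOf_eq_one, S.act_one, eq_comm, mul_self_eq_one_iff, S.act_eq_one_iff hs] at h1
  refine h1.resolve_left fun k => ?_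
  have := orderOf_dvd_natCard _ k
  rw [h, S.card_C, hK] at this
  omega

theorem uniq {t h : G} (h1 : t ∈ S.H) (h2 : orderOf t = 2) (h3 : S.K ≤ centralizer {t}) (k1 : h ∈ S.H)
    (k2 : S.act h = -1) (k3 : h ^ 2 = 1) : h = t := by
  have k4 : t⁻¹ * h ∈ S.K := ⟨S.H.mul_mem (S.H.inv_mem h1) k1, (S.act_eq_iff (S.H_le h1) (S.H_le k1)).1
    ((act_inv S hK (S.H_le h1) h2).trans k2.symm)⟩
  have k5 : Commute (t⁻¹ * h) t := mem_centralizer_singleton_iff.1 (h3 k4)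
  rw [← mul_inv_cancel_left t h, k5.symm.mul_pow, ← h2, pow_orderOf_eq_one, one_mul, h2] at k3
  have := Nat.dvd_gcd (orderOf_dvd_of_pow_eq_one k3) (hK ▸ orderOf_dvd_natCard _ k4)
  exact (inv_mul_eq_one.1 (orderOf_eq_one_iff.1 (Nat.dvd_one.1 this))).symm

include hf

theorem exists_t9 : ∃ t ∈ S.H, orderOf t = 2 ∧ S.K ≤ centralizer {t} := by
  have h1 : S.actHom.ker = S.C.subgroupOf S.N := by
    ext n; rw [MonoidHom.mem_ker, Units.ext_iff, mem_subgroupOf, ← S.act_eq_one_iff n.2]; rfl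
  obtain ⟨n, hn⟩ := MonoidHom.range_eq_top.1 (eq_top_of_card_eq S.actHom.range (by
    rw [← index_ker, h1, Nat.card_eq_fintype_card, ZMod.card_units]; exact hf)) (Units.mk0 3 (by decide))
  obtain ⟨h, k, i, e⟩ := S.exists_H_mul n.2
  have h2 : S.act n = 3 := congrArg Units.val hn
  rw [e, S.act_mul (S.H_le k) (S.P_le_N (S.zp_mem i)), S.act_of_mem_C (S.zp_mem_C i), mul_one] at h2
  refine ⟨h ^ 2520, pow_mem k _, orderOf_eq_prime ?_ fun e => ?_, fun y hy => mem_centralizer_singleton_iff.2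
    (mem_centralizer_singleton_iff.1 (pow_cent S hK (S.N_le_normalizer_K (S.H_le k)) hy)).symm⟩
  · rw [← pow_mul, ← orderOf_dvd_iff_pow_eq_one]
    exact (orderOf_dvd_natCard _ k).trans (by rw [S.card_H, hK, hf]; norm_num)
  · have := congrArg Units.val ((S.actHom.map_pow ⟨h, S.H_le k⟩ 2520).symm.trans
      ((congrArg S.actHom (Subtype.ext e)).trans (map_one _)))
    rw [Units.val_pow_eq_pow_val, S.coe_actHom, h2] at this
    exact absurd this (by decide +kernel)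

variable {t : G} (h1 : t ∈ S.H) (h2 : orderOf t = 2) (h3 : S.K ≤ centralizer {t})
include h1 h2 h3

theorem exists_inv {M : Subgroup G} (hM : S.N ≤ M) (hn : S.N.relIndex M ≤ 120) {m x : G} (k3 : m ∈ M)
    (k4 : m * S.z * m⁻¹ = x) (k2 : x ∉ S.P) :
    ∃ b, t * (S.zp b * x * (S.zp b)⁻¹) * t⁻¹ = (S.zp b * x * (S.zp b)⁻¹)⁻¹ := by
  have e1 := Solv.card_inf_mul_relIndex (S.N.map (MulAut.conj m).toMonoidHom) S.N
  have e2 := relIndex_le_of_le_right (H := S.N.map (MulAut.conj m).toMonoidHom) hM index_ne_zero_of_finite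
  have e3 := card_eq_relIndex_mul (show S.N.map (MulAut.conj m).toMonoidHom ≤ M by
    rintro _ ⟨g, k, rfl⟩; exact mul_mem (mul_mem k3 (hM k)) (inv_mem k3))
  rw [card_map_of_injective (MulAut.conj m).injective, card_eq_relIndex_mul hM] at e3
  have e4 : ¬ 17 ∣ Nat.card (S.N.map (MulAut.conj m).toMonoidHom ⊓ S.N : Subgroup G) := fun k => by
    obtain ⟨_, ⟨⟨y, k5, rfl⟩, k6⟩, k7⟩ := exm k
    have k8 := ((MulAut.conj m).orderOf_eq y).symm.trans k7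
    exact k2 (k4 ▸ S.conj_mem_P (S.mem_N_of_conj (mem_P S k5 k8) (by rintro rfl; simp at k8) (mem_P S k6 k7))
      (mem_zpowers _))
  obtain ⟨_, ⟨⟨s, k5, rfl⟩, k6⟩, k7⟩ := exm (p := 2) (H := S.N.map (MulAut.conj m).toMonoidHom ⊓ S.N) (by
    rw [← Nat.eq_of_mul_eq_mul_right Nat.card_pos e3] at e2
    rw [S.card_N', hK, hf] at e1
    obtain ⟨r, hr⟩ := (fact17.out.dvd_mul.1 ⟨144, e1⟩).resolve_left e4
    rw [hr] at e1 e2
    have : r ≤ 7 := by omega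
    interval_cases r <;> omega)
  have k8 := S.conj_z k5
  rw [act_inv S hK k5 (((MulAut.conj m).orderOf_eq s).symm.trans k7), S.zp_neg, S.zp_one] at k8
  replace k8 : (MulAut.conj m).toMonoidHom s * x * ((MulAut.conj m).toMonoidHom s)⁻¹ = x⁻¹ := by
    rw [← k4, conj_inv, ← k8]; simp [mul_assoc]
  have k9 := act_inv S hK k6 k7
  generalize (MulAut.conj m).toMonoidHom s = s at k6 k7 k8 k9
  obtain ⟨u, e5, a, rfl⟩ := S.exists_H_mul k6
  rw [S.act_mul (S.H_le e5) (S.P_le_N (S.zp_mem a)), S.act_of_mem_C (S.zp_mem_C a), mul_one] at k9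
  obtain rfl := uniq S hK h1 h2 h3 e5 k9 (isConj_one_right.1 ((k7 ▸ pow_orderOf_eq_one _ : (u * S.zp a) ^ 2 = 1) ▸
    ((S.isConj_mul_zp (by decide) (S.H_le e5) k9 a).pow 2).symm))
  obtain ⟨b, rfl⟩ : ∃ b, a = b + b := ⟨9 * a, by rw [← add_mul]; exact (one_mul a).symm⟩
  have e6 : u * S.zp b = S.zp b * (u * S.zp (b + b)) := by
    rw [← mul_assoc, S.zp_mul_inv (S.H_le e5) k9, mul_assoc, ← S.zp_add, neg_add_cancel_left]
  refine ⟨b, ?_⟩
  calc _ = (u * S.zp b) * x * (u * S.zp b)⁻¹ := by group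
    _ = S.zp b * (u * S.zp (b + b) * x * (u * S.zp (b + b))⁻¹) * (S.zp b)⁻¹ := by rw [e6]; group
    _ = _ := by rw [k8]; group

theorem inv_inj {x : G} (k1 : t * x * t⁻¹ = x⁻¹) (k2 : x ∉ S.P) (k4 : orderOf x = 17) {c : ZMod 17}
    (e1 : t * (S.zp c * x * (S.zp c)⁻¹) * t⁻¹ = (S.zp c * x * (S.zp c)⁻¹)⁻¹) : c = 0 := by
  by_contra hc
  refine k2 (mem_P S (S.C_le_N (S.mem_C_of_commute (i := c + c) (fun e => hc (by
    have : (17 : ZMod 17) = 0 := rfl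
    linear_combination 9 * e - c * this)) ?_)) k4)
  rw [show t * (S.zp c * x * (S.zp c)⁻¹) * t⁻¹ = t * S.zp c * t⁻¹ * (t * x * t⁻¹) * (t * S.zp c * t⁻¹)⁻¹ by group,
    S.conj_zp (S.H_le h1), act_inv S hK (S.H_le h1) h2, neg_one_mul, S.zp_neg, k1] at e1
  rw [S.zp_add, ← Commute.inv_left_iff, Commute, SemiconjBy]
  calc _ = S.zp c * ((S.zp c)⁻¹ * x⁻¹ * (S.zp c)⁻¹⁻¹) * S.zp c := by group
    _ = _ := by rw [e1]; group

theorem not_27' {M : Subgroup G} (hM : S.N ≤ M) (hn : S.N.relIndex M ≤ 120) :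
    ¬ 27 ∣ Nat.card (M ⊓ centralizer {t} : Subgroup G) := fun n3 => by
  have n1 : S.N.relIndex M % 17 = 1 := syl_sub S.nsq S.ord (hM (S.P_le_N (mem_zpowers _)))
  have n6 := n3.trans (card_dvd_of_le inf_le_left)
  have n7 := card_eq_relIndex_mul (S.C_le_N.trans hM)
  rw [card_eq_relIndex_mul hM, S.card_N', hK, hf] at n6 n7
  rw [S.card_C, hK] at n7
  obtain ⟨X, hX⟩ : ∃ X : Set G, X = {y | ∃ g ∈ M, g * S.z * g⁻¹ = y} := ⟨_, rfl⟩
  have x1 : X.ncard = S.C.relIndex M := hX ▸ S.centralizer_z ▸ ZD.ncard_cl M S.z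
  have x2 : ∀ g ∈ M, ∀ x ∈ X, g * x * g⁻¹ ∈ X := hX ▸ by
    rintro g k _ ⟨m, k', rfl⟩; exact ⟨g * m, mul_mem k k', by group⟩
  have x3 : ∀ x ∈ X, orderOf x = 17 := hX ▸ by
    rintro _ ⟨m, -, rfl⟩; exact (MulAut.conj m).orderOf_eq _ |>.trans S.ord
  have x4 : ∀ a, ∀ x ∉ S.P, S.zp a * x * (S.zp a)⁻¹ ∉ S.P := fun a x k e => k (by
    simpa [mul_assoc] using mul_mem (mul_mem (inv_mem (S.zp_mem a)) e) (S.zp_mem a))
  have f1 : 3 ∣ {x ∈ X | t * x * t⁻¹ = x⁻¹}.ncard := ZD.dvd_ncard_cj (P := M ⊓ centralizer {t})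
    (fun g k x k' => And.intro (x2 g k.1 x k'.1) (by
    have := mem_centralizer_singleton_iff.1 k.2
    calc t * (g * x * g⁻¹) * t⁻¹ = (t * g) * x * (t * g)⁻¹ := by group
      _ = g * (t * x * t⁻¹) * g⁻¹ := by rw [← this]; group
      _ = _ := by rw [k'.2]; group)) fun x k => by
    have e1 := Solv.card_inf_mul_relIndex (centralizer {x}) (M ⊓ centralizer {t})
    have e2 := card_dvd_of_le (inf_le_left (a := centralizer {x}) (b := M ⊓ centralizer {t}))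
    rw [S.card_cent' (x3 x k.1), hK] at e2
    by_contra e
    rw [← e1] at n3
    exact absurd ((((Nat.prime_three.coprime_iff_not_dvd.2 e).pow_left 3).dvd_of_dvd_mul_right n3).trans e2)
      (by norm_num)
  have f2 : {x ∈ X | t * x * t⁻¹ = x⁻¹} ∩ S.P = X ∩ S.P := Set.ext fun x => ⟨fun k => ⟨k.1.1, k.2⟩, fun k => ⟨⟨k.1, by
    obtain ⟨a, rfl⟩ := S.mem_P_iff.1 k.2
    rw [S.conj_zp (S.H_le h1), act_inv S hK (S.H_le h1) h2, neg_one_mul, S.zp_neg]⟩, k.2⟩⟩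
  have f3 : X \ S.P = (fun y : ZMod 17 × G => S.zp y.1 * y.2 * (S.zp y.1)⁻¹) ''
      Set.univ ×ˢ ({x ∈ X | t * x * t⁻¹ = x⁻¹} \ S.P) := by
    refine Set.Subset.antisymm (fun x k => ?_) ?_
    · obtain ⟨m, k3, k4⟩ : x ∈ {y | ∃ g ∈ M, g * S.z * g⁻¹ = y} := hX ▸ k.1
      obtain ⟨b, hb⟩ := exists_inv S hK hf h1 h2 h3 hM hn k3 k4 k.2
      exact ⟨(-b, S.zp b * x * (S.zp b)⁻¹), ⟨trivial, ⟨x2 _ (hM (S.P_le_N (S.zp_mem b))) _ k.1, hb⟩, x4 b x k.2⟩,
        by simp [S.zp_neg, mul_assoc]⟩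
    · rintro _ ⟨⟨a, x⟩, ⟨-, k1, k2⟩, rfl⟩
      exact ⟨x2 _ (hM (S.P_le_N (S.zp_mem a))) _ k1.1, x4 a x k2⟩
  have f4 := Set.ncard_inter_add_ncard_sdiff_eq_ncard X S.P
  have f5 := Set.ncard_inter_add_ncard_sdiff_eq_ncard {x ∈ X | t * x * t⁻¹ = x⁻¹} S.P
  have f6 : (X ∩ S.P).ncard ≤ 17 := (Set.ncard_le_ncard Set.inter_subset_right).trans S.card_P.le
  rw [f3, Set.InjOn.ncard_image, Set.ncard_prod, Set.ncard_univ, Nat.card_zmod, x1] at f4
  · rw [f2] at f5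
    generalize (X ∩ S.P).ncard = e at f4 f5 f6
    generalize Set.ncard (_ \ _) = a at f4 f5
    generalize Set.ncard _ = b at f1 f5
    generalize S.N.relIndex M = c at n1 n6 n7
    generalize S.C.relIndex M = d at f4 n7
    clear * - f4 f5 f6 f1 n1 n6 n7
    omega
  rintro ⟨a, x⟩ ⟨-, k1, k2⟩ ⟨b, y⟩ ⟨-, k3, k4⟩ e
  obtain rfl : y = S.zp (-b + a) * x * (S.zp (-b + a))⁻¹ := by
    rw [S.zp_add, S.zp_neg, mul_inv_rev, mul_assoc _ _ x, mul_assoc, ← mul_assoc (_ * x), show _ * x * _ = _ from e]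
    group
  simp [neg_add_eq_zero.1 (inv_inj S hK hf h1 h2 h3 k1.2 k2 (x3 x k1.1) k3.2)]

theorem not_27 (hN : Nat.card G = N) {T : PSet 19 G} (hT : Nat.card T.K = 1) :
    ¬ 27 ∣ Nat.card (centralizer ({t} : Set G)) := fun h => by
  have hM := S.N_le_normalizer_K
  have n3 := Sylow.prime_pow_dvd_card_normalizer (p := 3) (n := 2) h (H := S.K.subgroupOf _)
    ((Nat.card_congr (subgroupOfEquivOfLe h3).toEquiv).trans hK)
  have n4 : ¬ 19 ∣ Nat.card (normalizer (S.K : Set G)) := fun k => by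
    obtain ⟨y, k1, k2⟩ := exm k
    have k3 : orderOf (y ^ 2520) = 19 := by rw [orderOf_pow, k2]; rfl
    have := card_dvd_of_le (show S.K ≤ centralizer {y ^ 2520} from fun a k => mem_centralizer_singleton_iff.2
      (mem_centralizer_singleton_iff.1 (pow_cent S hK k1 k)).symm)
    rw [T.card_cent' k3, hT, hK] at this
    omega
  rw [← subgroupOf_normalizer_eq h3, Solv.card_subgroupOf] at n3
  have n5 := hN ▸ (normalizer (S.K : Set G)).card_subgroup_dvd_card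
  rw [card_eq_relIndex_mul hM, S.card_N', hK, hf] at n4 n5
  exact not_27' S hK hf h1 h2 h3 hM ((by decide +kernel : ∀ n ∈ Nat.divisors 20520, n % 17 = 1 → n % 19 ≠ 0 → n ≤ 120) _
    (Nat.mem_divisors.2 ⟨Nat.dvd_of_mul_dvd_mul_right (by norm_num) n5, by norm_num⟩)
    (syl_sub S.nsq S.ord (hM (S.P_le_N (mem_zpowers _)))) (by omega)) n3

end

variable [IsSimpleGroup G] (hN : Nat.card G = N)
include hN

theorem pset (p : ℕ) [Fact p.Prime] (h : p ∣ N ∧ ¬ p ^ 2 ∣ N := by norm_num) : Nonempty (PSet p G) :=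
  nonempty_pset (hN ▸ h.1) (hN ▸ h.2)

theorem mem {p : ℕ} [Fact p.Prime] (S : PSet p G) : S.pa ∈ params N A p :=
  hN ▸ S.mem_params (hG hN) (hN ▸ hA)

theorem c19 (T : PSet 19 G) : T.pa = P19 := by
  obtain ⟨S⟩ := pset hN 17
  obtain ⟨R⟩ := pset hN 5
  by_contra h
  exact not_acc_false (((((acc_init (commutator_eq_top (hG hN)) t1).addB (hG hN) hN hA (bc T)
    (List.mem_filter.2 ⟨mem hN T, by simpa⟩)).cmpB (hG hN) hN hA).addB (hG hN) hN hA (bc S) (mem hN S)).addB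
    (hG hN) hN hA (bc R) (mem hN R))

theorem c17 (S : PSet 17 G) : S.pa = P17 := by
  obtain ⟨T⟩ := pset hN 19
  by_contra h
  obtain ⟨W, k1, k2⟩ := (rs_init (commutator_eq_top (hG hN))).addB (hG hN) hN hA (bc T)
    (List.mem_singleton.2 (c19 hN T)) t2
  obtain ⟨W, k1, k2⟩ := k1.addB (hG hN) hN hA (bc S) (List.mem_filter.2 ⟨mem hN S, by simpa⟩) k2
  obtain ⟨W, ⟨s, k1, k3, k4⟩, k2⟩ := k1.cmpB (hG hN) hN hA k2
  simp only [kA, Bool.and_eq_true, beq_iff_eq, List.all_eq_true, bne_iff_ne] at k2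
  have hK : Nat.card S.K = 9 := congrArg (·.c) k2.1
  have hf : S.fi = 16 := congrArg (·.e) k2.1
  obtain ⟨t, h1, h2, h3⟩ := exists_t9 S hK hf
  have h4 : t ^ 2 = 1 := h2 ▸ pow_orderOf_eq_one t
  have h5 := fun χ (k : χ ∈ irr ⊤) => (invol_val (commutator_eq_top (hG hN)) (isCh_of_irr k) h4).1
  have h6 := S.bil_eq (by decide) h4 h4 h5 h5
  obtain ⟨q, hq⟩ := Finset.dvd_sum (s := irr ⊤) (a := 27) (f := fun χ => iv t χ * iv t χ * S.be χ *
      (Nat.card G / charDegree χ : ℕ)) fun χ k => by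
    by_cases e : χ ∈ s
    · exact (Int.natCast_dvd_natCast.2 (hN ▸ (by decide +kernel : ∀ d ∈ A, d % 27 ≠ 0 → 27 ∣ N / d) _
        (hA _ (hN ▸ dvd_of_mem_dm (mem_dm.2 ⟨χ, k, rfl⟩))) (k2.2 _ ((mem_of_map k3).2 ⟨χ, e, rfl⟩)))).mul_left _
    · simp [show S.be χ = 0 from (k4 χ k e).2 0 rfl]
  rw [hq, hK, show S.mI t = 1 from Nat.card_eq_one_iff_exists.2 ⟨⟨t, .refl _, h1, act_inv S hK (S.H_le h1) h2⟩,
    fun y => Subtype.ext (uniq S hK h1 h2 h3 y.2.2.1 y.2.2.2 (isConj_one_right.1 (h4 ▸ y.2.1.pow 2)))⟩] at h6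
  refine not_27 S hK hf h1 h2 h3 hN (congrArg (·.c) (c19 hN T)) ((by decide +kernel : ∀ d ∈ A,
    (243 : ℤ) ∣ 272 * (d * d) → 27 ∣ d) _ (hA _ (hN ▸ card_subgroup_dvd_card _)) ⟨q, ?_⟩)
  push_cast at h6
  linear_combination -h6

end CF.Small.En.J3
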