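import Cfsg.Agent.Small.J3g
import Cfsg.Agent.Small.J3b
import Cfsg.Agent.Small.J3c

/-!
# Simple groups of order 50232960: the principal `5`-block
-/

set_option autoImplicit false
set_option linter.unusedSectionVars false
set_option maxRecDepth 100000

namespace CF.Small.En.J3

open Subgroup CF.BlockB Cfsg CF.PF Sv CF.Char

variable {G : Type*} [Group G] [Finite G] [IsSimpleGroup G] (hN : Nat.card G = N)
  (R : PSet 5 G) (S : PSet 17 G) (T : PSet 19 G)
include hN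

theorem not_cv {W : List Row} (h : RS [bc R, bc S, bc T] [true, true, true] W) (fl : List Bool) :
    cv (mkT Cf 5) (pars [bc R, bc S, bc T]) fl W ≠ true := fun k => by
  have c1 : Col (rowF [bc S, bc T]) 0 P17 :=
    ⟨bc S, c17 hN S, fun _ k => (S.tz_eq_be k (.inr (congrArg (·.c) (c17 hN S)))).symm⟩
  have c2 : Col (rowF [bc S, bc T]) 1 P19 :=
    ⟨bc T, c19 hN T, fun _ k => (T.tz_eq_be k (.inr (congrArg (·.c) (c19 hN T)))).symm⟩
  have hs := cs_rowF [bc S, bc T] fun r => q2 (ext 0 r)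
  have hW : ((irr ⊤).filter fun χ => q2 (ext 0 (rowF [bc S, bc T] χ)) = true).val.map _ = _ :=
    h.ins q2 fun r k => by simp [q2, k.2 1 rfl, k.2 2 rfl]
  have ho : Out (rowF [bc S, bc T]) ((irr ⊤).filter fun χ => q2 (ext 0 (rowF [bc S, bc T] χ)) = true) Z [0, 1] :=
    fun χ k k' => by
      have k1 : S.be χ = 0 ∧ T.be χ = 0 := by simp [k, q2] at k'; exact k'
      refine ⟨List.contains_iff_mem.1 (List.all_eq_true.1 tz _ (by
        rw [← c17 hN S, ← c19 hN T]
        refine mem_cands (cs := [bc S, bc T]) (hG hN) hN hA k ⟨fun e => ?_, ?_⟩ rfl rfl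
        · rw [eq_triv_of_deg (commutator_eq_top (hG hN)) k e, PSet.be_triv] at k1
          simp at k1
        · rintro (_ | _ | _) e
          exacts [k1.1, k1.2, by simp at e])), by simp; exact k1⟩
  have o1 := fun χ k k' => (ho χ k k').2 0 (by simp)
  have o2 := fun χ k k' => (ho χ k k').2 1 (by simp)
  rw [cv, Bool.and_eq_true, show (pars [bc R, bc S, bc T]).getD 0 default = R.pa from rfl] at k
  generalize W.filter q2 = W at hW k
  generalize ((irr ⊤).filter fun χ => q2 (ext 0 (rowF [bc S, bc T] χ)) = true) = s at hs hW ho o1 o2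
  obtain ⟨W, k6, k7⟩ := hs.cover (bc R) (W := W.map dr) (by rw [← Multiset.map_coe, ← hW, Multiset.map_map]; rfl)
    (C := Cf) (by decide) ho (by simpa [Cf] using ⟨⟨_, by decide, c1⟩, _, by decide, c2⟩)
    (pr := (W.filter (·.at 0 != 0)).map (ext 0)) (.inr ⟨rfl, by
      rw [← Multiset.map_coe, ← map_filter hW, Multiset.map_map]
      refine Multiset.map_congr (congrArg _ (Finset.ext fun χ => by simp; exact fun _ => .rfl)) fun χ e => ?_
      obtain ⟨k1, k2⟩ := Finset.mem_filter.1 e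
      replace k2 : R.be χ ≠ 0 := bne_iff_ne.1 k2
      have k3 := List.all_eq_true.1 k.1 _ ((mem_of_map hW).2 ⟨χ, k1, rfl⟩)
      replace k3 : (R.be χ).natAbs = 4 := by simp at k3; exact k3.resolve_left k2
      rw [exF, R.tz_eq_be (hs.sub k1) (.inl k2), show mv 5 χ = 0 by
        rcases Int.natAbs_eq (R.be χ) with e | e
        exacts [mv_zero fun _ => R.val_of_be (hs.sub k1) (a := 1) (by omega) one_ne_zero,
          mv_zero fun _ => R.val_of_be (hs.sub k1) (a := -1) (by omega) (by simp)]]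
      rfl⟩) (by rw [hN]; exact k.2)
  rw [← hN, tri_of (hs.exF _) k6 ⟨bc R, rfl, fun _ _ => rfl⟩
    (by simpa using ⟨⟨bc R, rfl, fun _ _ => rfl⟩, c1, c2⟩) (by simpa using ⟨⟨c1, o1⟩, c2, o2⟩)] at k7
  exact Bool.false_ne_true k7

theorem five : R.pa = P5 ∧ RS [bc R, bc S, bc T] [true, false, false] W5 := by
  obtain ⟨q, h1, h2⟩ : ∃ q, st q = true ∧ q R.pa = true := by
    by_cases a : R.pa.c ≤ 8
    · exact ⟨_, t3, decide_eq_true a⟩
    by_cases b : R.pa.c ≤ 96
    exacts [⟨_, t4, by simp [b, not_le.1 a]⟩, ⟨_, t5, decide_eq_true (not_le.1 b)⟩]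
  rw [st, frcL_eq] at h1
  obtain ⟨W, k1, k2⟩ := (rs_init (commutator_eq_top (hG hN))).addB (hG hN) hN hA (bc T)
    (List.mem_singleton.2 (c19 hN T)) h1
  obtain ⟨W, k1, k2⟩ := k1.addB (hG hN) hN hA (bc S) (List.mem_singleton.2 (c17 hN S)) k2
  obtain ⟨W, k1, k2⟩ := k1.addB (hG hN) hN hA (bc R) (List.mem_filter.2 ⟨mem hN R, h2⟩) k2
  obtain ⟨W, k1, k2⟩ := k1.cmpB (hG hN) hN hA k2
  simp only [k5, Bool.and_eq_true, Bool.or_eq_true, beq_iff_eq, List.isPerm_iff] at k2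
  have e : W.Perm (fr W) := (List.filter_append_perm _ W).symm
  have k3 := St.perm k1 e
  have k4 := e.all_eq ▸ k2.1
  rcases k2.2 with (k | k) | k
  · exact ⟨k.1, St.perm k1 k.2.symm⟩
  · rw [Bool.cond_eq_ite] at k
    split_ifs at k <;> rw [Bool.and_eq_true] at k
    exacts [absurd k.2 (not_zt hN R (c17 hN S) (c19 hN T) k3 (fun _ k => k.2 0 rfl) k4 _),
      absurd k.2 (not_tu hN R (c17 hN S) (c19 hN T) k3 (fun _ k => k.2 0 rfl) k4 _)]
  · obtain ⟨W, k1, k⟩ := k1.cmpB (hG hN) hN hA k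
    obtain ⟨W, k1, k⟩ := k1.cmpB (hG hN) hN hA k
    exact absurd k (not_cv hN R S T k1 _)

omit S T in
theorem cz {w : G} (hw : orderOf w = 2) (h : 128 ∣ Nat.card (centralizer ({w} : Set G))) :
    R.pa = P5 ∧ Nat.card (centralizer ({w} : Set G)) = 1920 ∧ R.mI w = 4 := by
  obtain ⟨S⟩ := pset hN 17
  obtain ⟨T⟩ := pset hN 19
  obtain ⟨h1, h2⟩ := five hN R S T
  obtain ⟨W, k1, k2⟩ := st_col hN h2 (x := bc R) (fun _ => rfl) (fun _ k => k.2 0 rfl) (g := id) (fun _ => rfl)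
    (fun _ => rfl) hw (fun _ _ _ => rfl) (by
      rw [show pars [bc R, bc S, bc T] = [P5, P17, P19] by rw [← h1, ← c17 hN S, ← c19 hN T]; rfl]
      exact List.all_eq_true.1 t6 _ (h1 ▸ mem_CZ hN (c17 hN S) (c19 hN T) hw h R))
  rw [Bool.and_eq_true, beq_iff_eq, beq_iff_eq, st_tsum k1 0 0 (k := 1) fun _ k => k.2 0 rfl] at k2
  have h4 : w ^ 2 = 1 := hw ▸ pow_orderOf_eq_one w
  have h5 := fun χ (k : χ ∈ irr ⊤) => (invol_val (commutator_eq_top (hG hN)) (isCh_of_irr k) h4).1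
  have h6 := R.bil_eq (by decide) h4 h4 h5 h5
  rw [hN, show ∑ χ ∈ irr ⊤, iv w χ * iv w χ * R.be χ * (N / charDegree χ : ℕ) = _ from k2.2, k2.1,
    show Nat.card R.K = 6 from congrArg (·.c) h1] at h6
  exact ⟨h1, k2.1, by push_cast at h6; nlinarith⟩

end CF.Small.En.J3
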