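import Cfsg.Agent.Small.J3h
import Cfsg.Agent.S0496
import Cfsg.Agent.Classical.SmallRecog
import Cfsg.Agent.Solv.CyclicMax

/-!
# Simple groups of order 50232960: the centralizer of a central involution
-/

set_option autoImplicit false
set_option linter.unusedSectionVars false

namespace CF.Small.En.J3

open Subgroup CF.BlockB Cfsg

variable {G : Type*} [Group G] [Finite G]

theorem cent_dvd {H : Subgroup G} (x : H) :
    Nat.card (centralizer ({x} : Set H)) ∣ Nat.card (centralizer ({(x : G)} : Set G)) := by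
  rw [← card_map_of_injective H.subtype_injective]
  refine card_dvd_of_le ?_
  rintro _ ⟨y, k, rfl⟩
  exact mem_centralizer_singleton_iff.2 (congrArg Subtype.val (mem_centralizer_singleton_iff.1 k))

theorem norm_dvd {H : Subgroup G} (x : H) :
    Nat.card (normalizer (zpowers x : Set H)) ∣ Nat.card (normalizer (zpowers (x : G) : Set G)) := by
  rw [← card_map_of_injective H.subtype_injective]
  exact card_dvd_of_le ((le_normalizer_map _).trans (by rw [MonoidHom.map_zpowers]; rfl))

theorem frat {p : ℕ} [Fact p.Prime] (S : PSet p G) (X : Subgroup G) [X.Normal] (h : p ∣ Nat.card X) :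
    X.index ∣ p * Nat.card S.K * S.fi := by
  obtain ⟨x, h1, h2⟩ := exm h
  obtain ⟨P, h3⟩ := exists_mem_sylow (p := p) (k := 1) (x := x) (by rw [pow_one, ← h2, pow_orderOf_eq_one])
  obtain ⟨m, hm⟩ := S.p_dvd
  have h4 := sylow_eq_zpowers P ((card_sylow_eq P (a := 1) (m := m) (by rw [hm, pow_one]) fun h => S.nsq (by
    rw [hm, pow_two]; exact Nat.mul_dvd_mul_left p h)).trans (pow_one p)) h3 (by
      rintro rfl; exact (Fact.out : p.Prime).ne_one (h2.symm.trans orderOf_one))
  rw [← relIndex_top_right, ← P.normalizer_sup_eq_top' (h4 ▸ zpowers_le.2 h1), relIndex_sup_right, ← S.card_norm h2,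
    ← h4]
  exact relIndex_dvd_card _ _

theorem no35 (h9 : ¬ 3 ^ 2 ∣ Nat.card G) (h : ∀ x : G, orderOf x = 5 → Nat.card (centralizer ({x} : Set G)) ∣ 10)
    (X : Subgroup G) [X.Normal] (h3 : 3 ∣ Nat.card X) : ¬ 5 ∣ X.index := fun k => by
  haveI := Fact.mk Nat.prime_three
  obtain ⟨S⟩ := nonempty_pset (h3.trans X.card_subgroup_dvd_card) h9
  have h1 := k.trans (frat S X h3)
  have h2 := Nat.le_of_dvd two_pos (PSet.fi_dvd (S := S))
  have h4 := PSet.fi_pos (S := S)
  obtain ⟨x, k1, k2⟩ := exm (p := 5) (H := S.K) (by interval_cases S.fi <;> omega)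
  have := (orderOf_dvd_natCard _ (mem_centralizer_singleton_iff.2 (S.mem_C_iff.1 (S.K_le_C k1)).symm)).trans (h x k2)
  rw [S.ord] at this
  omega

theorem exists_E (hc : Nat.card G = 1920) {z : G} (hz : orderOf z = 2) (hZ : z ∈ center G)
    (h : ∀ x : G, orderOf x = 5 → Nat.card (centralizer ({x} : Set G)) ∣ 30 ∧
      Nat.card (normalizer (zpowers x : Set G)) ∣ 60) :
    ∃ (E : Subgroup G) (_ : E.Normal), z ∈ E ∧ Nat.card E = 32 ∧ Nonempty (G ⧸ E ≃* alternatingGroup (Fin 5)) := by
  obtain ⟨S⟩ := nonempty_pset (p := 5) (G := G) (by norm_num [hc]) (by norm_num [hc])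
  obtain ⟨h1, h2⟩ : Nat.card S.K = 2 ∧ S.fi = 2 := by
    obtain ⟨k1, k2⟩ := h _ S.ord
    have k3 := orderOf_dvd_natCard _ (S.mem_K_iff.2 ⟨S.mem_C_iff.2 (mem_center_iff.1 hZ _).symm, by simp [hz]⟩)
    obtain ⟨n, k4⟩ := S.exists_index_N
    have k5 := S.card_eq
    rw [S.card_cent' S.ord] at k1
    rw [S.card_norm S.ord] at k2
    rw [hc, k4] at k5
    rw [hz] at k3
    have := Nat.le_of_dvd (by norm_num) k1
    have := Nat.le_of_dvd (by norm_num) (PSet.fi_dvd (S := S))
    have : Nat.card S.K ≤ 6 := by omega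
    interval_cases Nat.card S.K <;> interval_cases S.fi <;> omega
  have h3 : ∀ x : G, orderOf x = 5 → Nat.card (centralizer ({x} : Set G)) ∣ 10 := fun x k => by
    rw [S.card_cent' k, h1]
  obtain ⟨E, ⟨n, e1, e2⟩, e3⟩ := exists_maximal_of_wellFoundedGT (fun E : Subgroup G => E.Normal ∧ z ∈ E ∧ E ≠ ⊤)
    ⟨zpowers z, ⟨fun a k g => by rwa [mem_center_iff.1 (zpowers_le.2 hZ k) g, mul_inv_cancel_right]⟩, mem_zpowers z,
      fun e => by
      have := Nat.card_zpowers z; rw [e, card_top, hc, hz] at this; omega⟩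
  haveI := QuotientGroup.nontrivial_iff.2 e2
  haveI : IsSimpleGroup (G ⧸ E) := ⟨fun H hH => or_iff_not_imp_right.2 fun k => by
    have k1 := QuotientGroup.le_comap_mk' E H
    rw [← comap_injective (QuotientGroup.mk'_surjective E) |>.eq_iff, MonoidHom.comap_bot, QuotientGroup.ker_mk']
    exact le_antisymm (e3 ⟨inferInstance, k1 e1, fun e => k (comap_injective (QuotientGroup.mk'_surjective E)
      (e.trans (comap_top _).symm))⟩ k1) k1⟩
  have e4 := hc ▸ E.card_mul_index
  have e5 := hz ▸ orderOf_dvd_natCard _ e1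
  by_cases k : E.index.Prime
  · rcases (k.dvd_mul.1 (show _ ∣ 2 ^ 7 * (3 * 5) from Dvd.intro_left _ e4)).imp
      (fun a => (Nat.prime_dvd_prime_iff_eq k Nat.prime_two).1 (k.dvd_of_dvd_pow a)) fun a => (k.dvd_mul.1 a).imp
        (Nat.prime_dvd_prime_iff_eq k Nat.prime_three).1 (Nat.prime_dvd_prime_iff_eq k Nat.prime_five).1
      with k1 | k1 | k1 <;> rw [k1] at e4
    · have c : Nat.card E = 5 ^ 1 * 192 := by omega
      obtain ⟨P⟩ : Nonempty (Sylow 5 E) := inferInstance
      have k2 := card_sylow_eq P c (by norm_num)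
      obtain ⟨V, hV⟩ := exists_pset_sylow P k2
      have k3 := fun (x : E) (k : orderOf x = 5) => (cent_dvd x).trans (h3 x ((orderOf_coe x).trans k))
      have k4 := k3 _ V.ord
      have k5 := orderOf_dvd_natCard _ (V.mem_K_iff.2 ⟨V.mem_C_iff.2 (Subtype.ext (mem_center_iff.1 hZ _).symm :
        (⟨z, e1⟩ : E) * V.z = V.z * ⟨z, e1⟩), by simp [orderOf_mk, hz]⟩)
      obtain ⟨n, k6⟩ := V.exists_index_N
      have k7 := V.card_eq
      have k8 := Nat.le_of_dvd (by norm_num) (PSet.fi_dvd (S := V))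
      have k9 := PSet.fi_dvd (S := V)
      rw [V.card_cent' V.ord] at k4
      rw [orderOf_mk, hz] at k5
      rw [c, k6, show Nat.card V.K = 2 by
        have := Nat.le_of_dvd (by norm_num) k4; have := Nat.card_pos (α := V.K); omega] at k7
      have hP : normalizer (P : Set E) ≤ centralizer (P : Set E) := by
        have : V.fi = 1 := by interval_cases V.fi <;> omega
        rw [← P.coe_coe, ← hV]; exact relIndex_eq_one.1 this
      have k10 := (MonoidHom.ker_transferSylow_isComplement' P hP).symm.index_eq_card.trans k2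
      have k11 := (MonoidHom.transferSylow P hP).ker.card_mul_index
      exact absurd k10.symm.dvd (no35 (by norm_num [c]) k3 _ (by rw [k10, c] at k11; omega))
    · have := frat S E (by omega)
      rw [k1, h1, h2] at this
      omega
    · exact absurd k1.symm.dvd (no35 (by norm_num [hc]) h3 E (by omega))
  · have := Agent.S0496.result (not_comm_of_not_prime k) (show E.index ≤ 1092 by
      nlinarith [Nat.le_of_dvd Nat.card_pos e5])
    change E.index = _ ∨ E.index = _ ∨ E.index = _ ∨ E.index = _ ∨ E.index = _ ∨ E.index = _ at this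
    have k1 : E.index = 60 := by rcases this with k | k | k | k | k | k <;> rw [k] at e4 ⊢ <;> omega
    exact ⟨E, n, e1, by rw [k1] at e4; omega, Classical.equiv_A5_of_simple k1⟩

theorem a5 : ∀ a : Equiv.Perm (Fin 5), a.sign = 1 → a ≠ 1 → ∃ y : Equiv.Perm (Fin 5), y.sign = 1 ∧
    (a * (y * a * y⁻¹)) ^ 5 = 1 ∧ a * (y * a * y⁻¹) ≠ 1 := by
  decide +kernel

theorem two_lt {E : Subgroup G} [E.Normal] (hE : Nat.card E = 32) (f : G ⧸ E ≃* alternatingGroup (Fin 5))
    (h : ∀ x : G, orderOf x = 5 → Nat.card (centralizer ({x} : Set G)) ∣ 30) {a : G} (ha : a ∉ E) :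
    2 < (centralizer {a}).relIndex E := by
  by_contra k
  obtain ⟨y, k1, k2, k3⟩ := a5 (f a) (f a).2 fun e => ha ((QuotientGroup.eq_one_iff a).1 (f.map_eq_one_iff.1
    (Subtype.ext e)))
  obtain ⟨y, rfl⟩ : ∃ g : G, f g = y := let ⟨g, e⟩ := (f.surjective.comp QuotientGroup.mk_surjective) ⟨y, k1⟩
    ⟨g, congrArg Subtype.val e⟩
  have k4 : 5 ∣ orderOf (a * (y * a * y⁻¹)) := (orderOf_eq_prime (Subtype.ext (by simpa using k2))
    fun e => k3 (by simpa using congrArg Subtype.val e)).symm.dvd.trans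
      (orderOf_map_dvd (f.toMonoidHom.comp (QuotientGroup.mk' E)) _)
  have k5 := h _ (orderOf_pow_orderOf_div (orderOf_pos _).ne' k4)
  have k6 : (centralizer {y * a * y⁻¹}).relIndex E = (centralizer {a}).relIndex E := by
    conv_rhs => rw [← Normal.map_conj_eq E y⁻¹, ← relIndex_comap]
    congr 1
    ext g
    simp only [mem_centralizer_singleton_iff, mem_comap, MonoidHom.coe_coe, MulAut.conj_apply, inv_inv]
    exact ⟨fun e => by simpa [mul_assoc] using congrArg (y⁻¹ * · * y) e,
      fun e => by simpa [mul_assoc] using congrArg (y * · * y⁻¹) e⟩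
  generalize orderOf (a * (y * a * y⁻¹)) / 5 = n at k5
  have k7 := relIndex_le_of_le_left (L := E) (show centralizer {a} ⊓ centralizer {y * a * y⁻¹} ≤
    centralizer {(a * (y * a * y⁻¹)) ^ n} from fun g e => mem_centralizer_singleton_iff.2
      ((Commute.mul_right (mem_centralizer_singleton_iff.1 e.1) (mem_centralizer_singleton_iff.1 e.2)).pow_right n))
    index_ne_zero_of_finite
  have k8 := Solv.card_inf_mul_relIndex (centralizer {(a * (y * a * y⁻¹)) ^ n}) E
  have k9 := Nat.le_of_dvd two_pos (Nat.dvd_gcd ((card_dvd_of_le inf_le_left).trans k5)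
    (hE ▸ card_dvd_of_le (inf_le_right (b := E))))
  have := k7.trans relIndex_inf_le
  rw [k6] at this
  nlinarith

end CF.Small.En.J3
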